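import Mathlib
import Cfsg.Agent.Lin.Cyclic

/-!
Factorisation `g y = b` with cyclic `y`, `b` where `y` stabilises a subspace of codimension two.
-/

set_option autoImplicit false

namespace Cfsg.Agent.Lin

open Module Submodule Polynomial

variable {F V : Type*} [Field F] [AddCommGroup V] [Module F V]

/-- Some plane meets its image in a line. -/
def Gd2 (T : End F V) : Prop :=
  ∃ x y, x ≠ 0 ∧ y ∉ F ∙ x ∧ T x ∈ span F {x, y} ∧ T y ∉ span F {x, y}

theorem exists_sub_mem_of_not_gd2 {T : End F V} (h : ¬ Gd2 T) {k : V} (hk : k ≠ 0)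
    (hT : T k ∈ F ∙ k) : ∃ c : F, ∀ x, T x - c • x ∈ F ∙ k := by
  have h1 : (F ∙ k) ≤ (F ∙ k).comap T := by simpa using hT
  obtain ⟨c, hc⟩ := ((F ∙ k).mapQ _ T h1).exists_eq_smul_id_of_forall_notLinearIndependent (by
    intro v
    obtain ⟨x, rfl⟩ := (F ∙ k).mkQ_surjective v
    by_cases hx : x ∈ F ∙ k
    · simp [(Quotient.mk_eq_zero _).2 hx, linearIndependent_fin2]
    rw [LinearIndependent.pair_iff' (by simpa using hx)]
    have : T x ∈ span F {k, x} := by
      by_contra h2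
      exact h ⟨k, x, hk, hx, span_mono (by simp) hT, h2⟩
    obtain ⟨a, b, e⟩ := mem_span_pair.1 this
    refine fun h3 => h3 b ?_
    simp [← e, (Quotient.mk_eq_zero _).2 (mem_span_singleton_self k)])
  refine ⟨c, fun x => (Submodule.Quotient.eq _).1 ?_⟩
  simpa using LinearMap.congr_fun hc (Submodule.Quotient.mk x)

variable [FiniteDimensional F V]

omit [FiniteDimensional F V] in
theorem finrank_span_pair_le (x y : V) : finrank F (span F {x, y}) ≤ 2 := by
  rw [← Matrix.range_cons_cons_empty]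
  exact finrank_range_le_card (R := F) ![x, y]

theorem scalar_of_not_gd2 (hV : 3 ≤ finrank F V) {T : End F V} (h : ¬ Gd2 T) {k : V} (hk : k ≠ 0)
    (hT : T k ∈ F ∙ k) : ∃ c : F, ∀ x, T x = c • x := by
  obtain ⟨c, hc⟩ := exists_sub_mem_of_not_gd2 h hk hT
  have h1 := (T - c • 1).finrank_range_add_finrank_ker
  have h2 : finrank F (LinearMap.range (T - c • 1)) ≤ finrank F (F ∙ k) :=
    Submodule.finrank_mono (by rintro _ ⟨x, rfl⟩; exact hc x)
  have h3 := finrank_span_singleton (K := F) hk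
  obtain ⟨k', h4, h5⟩ := exists_notMem_of_lt (D := F ∙ k) (W := LinearMap.ker (T - c • 1)) (by omega)
  have h6 : k' ≠ 0 := by rintro rfl; exact h5 (zero_mem _)
  obtain ⟨c', hc'⟩ := exists_sub_mem_of_not_gd2 h h6
    (mem_span_singleton.2 ⟨c, (sub_eq_zero.1 h4).symm⟩)
  obtain ⟨z, -, hz⟩ := exists_notMem_of_lt (D := span F {k, k'}) (W := ⊤)
    (by have := finrank_span_pair_le (F := F) k k'; rw [finrank_top]; omega)
  obtain rfl : c' = c := by
    by_contra h7
    have := sub_mem (span_mono (t := {k, k'}) (by simp) (hc z))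
      (span_mono (t := {k, k'}) (by simp) (hc' z))
    rw [sub_sub_sub_cancel_left, ← sub_smul, smul_mem_iff _ (sub_ne_zero.2 h7)] at this
    exact hz this
  refine ⟨c', fun x => ?_⟩
  obtain ⟨a, ha⟩ := mem_span_singleton.1 (hc' x)
  have := hc x
  by_cases h0 : a = 0
  · rw [← sub_eq_zero, ← ha, h0, zero_smul]
  · rw [← ha, smul_mem_iff _ h0] at this
    exact absurd this h5

theorem gd2_add (hV : 4 ≤ finrank F V) {T : End F V} (h : ¬ Gd2 T) {f : Dual F V} {d : V}
    (hf : f ≠ 0) (hd : d ≠ 0) : Gd2 (T + f.smulRight d) := by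
  by_contra h'
  have hr := Module.Dual.finrank_ker_add_one_of_ne_zero hf
  obtain ⟨k, hk, hk0⟩ := (LinearMap.ker f).exists_mem_ne_zero_of_ne_bot (by
    intro e; rw [e, finrank_bot] at hr; omega)
  have hk' : f k = 0 := hk
  obtain ⟨z, hz⟩ : ∃ z, f z = 1 := LinearMap.range_eq_top.1 (Module.Dual.range_eq_top_of_ne_zero hf) 1
  have n1 : ∀ x, x ≠ 0 → T x ∉ F ∙ x := fun x hx hT => by
    obtain ⟨c, hc⟩ := scalar_of_not_gd2 (by omega) h hx hT
    obtain ⟨c', hc'⟩ := scalar_of_not_gd2 (by omega) h' hk0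
      (mem_span_singleton.2 ⟨c, by simp [hc, hk']⟩)
    have e1 : c = c' := smul_left_injective F hk0 (by simpa [hc, hk'] using hc' k)
    simpa [hc, e1, hz, hd] using hc' z
  have n2 : ∀ x, x ≠ 0 → (T + f.smulRight d) x ∉ F ∙ x := fun x hx hT => by
    obtain ⟨c, hc⟩ := scalar_of_not_gd2 (by omega) h' hx hT
    exact n1 k hk0 (mem_span_singleton.2 ⟨c, by simpa [hk'] using (hc k).symm⟩)
  have q : ∀ {S : End F V}, ¬ Gd2 S → ∀ x, x ≠ 0 → S x ∉ F ∙ x → S (S x) ∈ span F {x, S x} := by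
    intro S hS x hx hx'
    by_contra h2
    exact hS ⟨x, S x, hx, hx', subset_span (by simp), h2⟩
  obtain ⟨x₁, a1, a2⟩ : ∃ x₁, f x₁ = 0 ∧ f (T x₁) ≠ 0 := by
    by_contra hc
    push Not at hc
    have z0 : z ≠ 0 := by rintro rfl; simp at hz
    obtain ⟨a, b, e⟩ := mem_span_pair.1 (q h z z0 (n1 z z0))
    have e1 := hc (T z - f (T z) • z) (by simp [hz])
    refine n1 (T z - f (T z) • z) (fun e => n1 z z0 (mem_span_singleton.2 ⟨_, (sub_eq_zero.1 e).symm⟩))
      (mem_span_singleton.2 ⟨b - f (T z), ?_⟩)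
    rw [map_sub, map_smul, ← e] at e1 ⊢
    simp only [map_sub, map_add, map_smul, hz, smul_eq_mul, mul_one] at e1
    rw [show a = (f (T z) - b) * f (T z) by linear_combination e1]
    module
  have key : ∀ x, f x = 0 → f (T x) ≠ 0 → x ∈ span F {d, T d} := fun x b1 b2 => by
    have x0 : x ≠ 0 := by rintro rfl; simp at b2
    have b3 := q h x x0 (n1 x x0)
    have b4 := q h' x x0 (n2 x x0)
    simp only [LinearMap.add_apply, LinearMap.smulRight_apply, b1, zero_smul, add_zero] at b4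
    rw [Submodule.add_mem_iff_right _ b3, smul_mem_iff _ b2] at b4
    have b5 : T d ∈ span F {x, T x} := by
      obtain ⟨a, b, rfl⟩ := mem_span_pair.1 b4
      rw [map_add, map_smul, map_smul]
      exact add_mem (smul_mem _ _ (subset_span (by simp))) (smul_mem _ _ b3)
    have b6 : finrank F (span F {d, T d}) = 2 := by
      rw [← Matrix.range_cons_cons_empty]
      exact finrank_span_eq_card ((LinearIndependent.pair_iff' hd).2
        fun c e => n1 d hd (mem_span_singleton.2 ⟨c, e⟩))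
    rw [eq_of_le_of_finrank_le (S₁ := span F {d, T d}) (S₂ := span F {x, T x})
      (span_le.2 (Set.pair_subset b4 b5)) (b6 ▸ finrank_span_pair_le _ _)]
    exact subset_span (by simp)
  have := Submodule.finrank_mono (show LinearMap.ker f ≤ span F {d, T d} from fun x hx => by
    have hx' : f x = 0 := hx
    by_cases h2 : f (T x) = 0
    · simpa using sub_mem (key (x + x₁) (by simp [hx', a1]) (by simpa [h2] using a2)) (key x₁ a1 a2)
    · exact key x hx' h2)
  have := finrank_span_pair_le (F := F) d (T d)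
  omega

theorem exists_sub_chain (g : V ≃ₗ[F] V) {H : Submodule F V} {ψ : Dual F V} {w : V} (hw : w ∈ H)
    (hw' : ψ w ≠ 0) (h1 : ∀ x ∈ H, ψ x = 0 → g.symm x ∈ H) (h2 : ∀ x ∈ H, ψ (g x) = 0) {p : F[X]}
    (hp : p.Monic) (hpd : p.natDegree = finrank F H) (hp0 : p.coeff 0 ≠ 0) :
    ∃ (z : End F H) (e : H) (y : End F V), Gen z e ∧ z.charpoly = p ∧ (∀ x : H, y x = z x) ∧
      Chain ((g : End F V) ∘ₗ y) H := by
  have hWr := finrank_inf_ker hw hw'
  set W := H ⊓ LinearMap.ker ψ with hW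
  obtain ⟨ζ, z1, z2, z3⟩ := exists_chain_pair g (H := H) (W := W) inf_le_left hWr
    fun x hx => h1 x hx.1 hx.2
  obtain ⟨ζ', e1, e2⟩ := exists_ext ζ (D := W) (w := w) (fun h => hw' h.2) 0
  have hζ' : ∀ x ∈ H, ζ' x ∈ H := fun x hx => by
    obtain ⟨c, d, hd, rfl⟩ := hyp_decomp inf_le_left hWr hw (fun h => hw' h.2) hx
    rw [map_add, map_smul, e1, e2 d hd]; simpa using z1 d hd
  have hc : Chain (ζ'.restrict hζ') (LinearMap.ker (ψ ∘ₗ H.subtype)) := by
    intro Y hY hi
    have := z2 (Y.map H.subtype) (by rintro _ ⟨x, hx, rfl⟩; exact ⟨x.2, hY hx⟩) (by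
      rintro _ ⟨x, hx, rfl⟩
      exact ⟨_, hi x hx, e2 _ ⟨x.2, hY hx⟩⟩)
    rw [eq_bot_iff]
    intro x hx
    have h2 : (x : V) ∈ Y.map H.subtype := ⟨x, hx, rfl⟩
    rw [this, mem_bot] at h2
    exact Subtype.ext h2
  obtain ⟨z, e, a1, a2, a3⟩ := hc.complete hWr.symm hp (hpd.trans hWr.symm)
  have hzinj : Function.Injective z := by
    rw [← LinearMap.ker_eq_bot, ← not_not (a := _ = _), ← ne_eq,
      ← LinearMap.det_eq_zero_iff_ker_ne_bot, LinearMap.det_eq_sign_charpoly_coeff, a3]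
    simp [hp0]
  obtain ⟨y₀, hy₀⟩ := LinearMap.exists_extend (H.subtype ∘ₗ z)
  have hy₀' : ∀ x : H, y₀ x = z x := fun x => LinearMap.congr_fun hy₀ x
  refine ⟨z, e, y₀, a2, a3, hy₀', fun Y hY hi => ?_⟩
  have hYW : Y ≤ W := fun x hx => by
    obtain ⟨u, hu, rfl⟩ := map_eq_of_inj hi (fun x hx h => by
      have h2 : y₀ x = 0 := by simpa using h
      rw [hy₀' ⟨x, hY hx⟩] at h2
      exact congrArg Subtype.val (hzinj (a₁ := ⟨x, hY hx⟩) (a₂ := 0)
        (by simpa using h2))) hx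
    refine ⟨hY hx, h2 _ ?_⟩
    rw [hy₀' ⟨u, hY hu⟩]
    exact (z ⟨u, hY hu⟩).2
  refine z3 Y hYW fun x hx => ?_
  have h3 : y₀ x = ζ x := by
    rw [hy₀' ⟨x, hY hx⟩, a1 ⟨x, hY hx⟩ (hYW hx).2]
    exact e2 x (hYW hx)
  simpa [h3] using hi x hx

theorem exists_factor2_aux (g : V ≃ₗ[F] V) (hg : Gd2 (g.symm : End F V).dualMap) {n : ℕ}
    (hn : finrank F V = n + 2) {p P : F[X]} (hp : p.Monic) (hpd : p.natDegree = n)
    (hp0 : p.coeff 0 ≠ 0) (hP : P.Monic) (hPd : P.natDegree = n + 2) (ρ : F) :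
    ∃ (H : Submodule F V) (z : End F H) (e : H) (y : End F V) (u t f : V) (s : F),
      finrank F H = n ∧ Gen z e ∧ z.charpoly = p ∧ (∀ x : H, y x = z x) ∧ y u - t ∈ H ∧
      y t - (s • u + ρ • t) ∈ H ∧ (∀ v, ∃ a b : F, v - (a • u + b • t) ∈ H) ∧
      Gen ((g : End F V) * y) f ∧ ((g : End F V) * y).charpoly = P := by
  obtain ⟨x₁, x₂, b1, b2, b3, b4⟩ := hg
  set H := LinearMap.ker x₁ ⊓ LinearMap.ker x₂
  set φ := (g.symm : End F V).dualMap x₁
  have hφ : ∀ v, φ v = x₁ (g.symm v) := fun _ => rfl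
  have hr1 := Module.Dual.finrank_ker_add_one_of_ne_zero b1
  obtain ⟨w₀, w1, w2⟩ : ∃ w ∈ LinearMap.ker x₁, x₂ w ≠ 0 := by
    by_contra hc
    push Not at hc
    have := mem_span_of_iInf_ker_le_ker (L := fun _ : Unit => x₁) (K := x₂)
      fun v hv => hc v ((mem_iInf _).1 hv ())
    exact b2 (by simpa using this)
  have hr2 : finrank F H + 1 = _ := finrank_inf_ker w1 w2
  obtain ⟨w, w3, w4⟩ : ∃ w ∈ H, x₂ (g.symm w) ≠ 0 := by
    by_contra hc
    push Not at hc
    refine b4 ?_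
    have := mem_span_of_iInf_ker_le_ker (L := ![x₁, x₂]) (K := (g.symm : End F V).dualMap x₂)
      (fun v hv => hc v ⟨(mem_iInf _).1 hv 0, (mem_iInf _).1 hv 1⟩)
    simpa [Set.pair_comm] using this
  have c1 : ∀ x ∈ H, φ x = 0 := fun x hx => by
    obtain ⟨a, b, e⟩ := mem_span_pair.1 b3
    simp [← e, show x₁ x = 0 from hx.1, show x₂ x = 0 from hx.2]
  have c2 : ∀ x ∈ H, φ (g x) = 0 := fun x hx => by simpa [hφ] using hx.1
  obtain ⟨z, e, y₀, a1, a2, a3, a4⟩ := exists_sub_chain g (ψ := (g.symm : End F V).dualMap x₂) w3 w4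
    (fun x hx h => ⟨c1 x hx, h⟩) (fun x hx => by simpa using hx.2) hp (by omega) hp0
  obtain ⟨h₀, d1, d2⟩ : ∃ h ∈ H, g h ∉ H := by
    by_contra hc
    push Not at hc
    obtain ⟨y, hy, e⟩ := map_eq_of_inj (f := (g : End F V)) hc (fun x _ h => by simpa using h) w3
    exact w4 (by simpa [← e] using hy.2)
  have φ0 : φ ≠ 0 := fun h => b1 (LinearMap.ext fun v => by
    simpa [hφ] using LinearMap.congr_fun h (g v))
  have hr3 := Module.Dual.finrank_ker_add_one_of_ne_zero φ0
  obtain ⟨t, t1, t2⟩ : ∃ t, φ t ≠ 0 ∧ x₁ t ≠ 0 := by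
    obtain ⟨a, ha⟩ := DFunLike.ne_iff.1 φ0
    obtain ⟨b, hb⟩ := DFunLike.ne_iff.1 b1
    by_cases h1 : x₁ a = 0
    · by_cases h2 : φ b = 0
      · exact ⟨a + b, by simpa [h2] using ha, by simpa [h1] using hb⟩
      · exact ⟨b, h2, hb⟩
    · exact ⟨a, ha, h1⟩
  obtain ⟨y₁, e1, e2⟩ := exists_ext y₀ d2 t
  have hc := chain_step (D := LinearMap.ker φ) c1 (by omega) (c2 _ d1) d2 e2 a4
    (fun x hx => c2 _ (by rw [a3 ⟨x, hx⟩]; exact (z _).2)) (by simpa [e1, hφ] using t2)
  obtain ⟨a, v, f1, f2, f3⟩ := hc.complete hn hP hPd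
  have dec : ∀ v, ∃ a b : F, v - (a • g h₀ + b • t) ∈ H := fun v => by
    obtain ⟨c, d, hd, e⟩ := hyp_decomp (D := H) (W := LinearMap.ker φ) c1 (by omega) (c2 _ d1) d2
      (x := v - (φ v / φ t) • t) (by simp [t1])
    exact ⟨c, φ v / φ t, by rwa [add_comm, ← sub_sub, e, add_sub_cancel_left]⟩
  obtain ⟨s, s', hs⟩ := dec (g.symm (a t))
  have hu : φ (((s' - ρ) / φ t) • g h₀) = 0 := by simp [c2 _ d1]
  set x := LinearEquiv.transvection hu
  have x1 : ∀ v, x v = v + (φ v * ((s' - ρ) / φ t)) • g h₀ := fun v => by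
    simp [x, LinearMap.transvection.apply, smul_smul]
  have x2 : ∀ v, x.symm v = v - (φ v * ((s' - ρ) / φ t)) • g h₀ := fun v => by
    rw [LinearEquiv.symm_apply_eq, x1]; simp [c2 _ d1]
  have hb : (g : End F V) * ((g.symm : End F V) * x.conj a) = x.conj a := by ext; simp
  have y1 : ∀ v, ((g.symm : End F V) * x.conj a) v - g.symm (a (x.symm v)) ∈ H := fun v => by
    simpa [LinearEquiv.conj_apply, x1] using H.smul_mem _ d1
  have y2 : a (g h₀) = g t := by rw [f1 _ (c2 _ d1)]; simp [e1]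
  refine ⟨H, z, e, (g.symm : End F V) * x.conj a, g h₀, t, x v, s, by omega, a1, a2, fun h => ?_,
    ?_, ?_, dec, ?_, by rw [hb, LinearEquiv.charpoly_conj, f3]⟩
  · simp [LinearEquiv.conj_apply, x1, x2, c1 _ h.2, f1, e2 _ h.2, a3, c2 _ (z h).2]
  · simpa [x2, c2 _ d1, y2] using y1 (g h₀)
  · have := add_mem (y1 t) hs
    rw [x2, mul_div_cancel₀ _ t1, map_sub, map_smul, y2, map_sub, map_smul,
      LinearEquiv.symm_apply_apply] at this
    convert this using 1
    module
  · rw [hb]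
    intro Y hY hi
    have := f2 (Y.comap (x : End F V)) hY fun u hu => by simpa [LinearEquiv.conj_apply] using hi _ hu
    rw [eq_top_iff]
    intro u _
    simpa using this.ge (mem_top (x := x.symm u))

/-- Factorisation with a quadratic factor of the characteristic polynomial of `y`. -/
theorem exists_factor2 (g : V ≃ₗ[F] V) (hg : Gd2 (g.symm : End F V).dualMap) {n : ℕ}
    (hn : finrank F V = n + 2) {p r P : F[X]} (hp : p.Monic) (hpd : p.natDegree = n)
    (hp0 : p.coeff 0 ≠ 0) (hP : P.Monic) (hPd : P.natDegree = n + 2) (hr : r.Monic)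
    (hrd : r.natDegree = 2) (hc : IsCoprime p r)
    (hdet : P.coeff 0 = LinearMap.det (g : End F V) * (p.coeff 0 * r.coeff 0)) :
    ∃ (y : End F V) (e f : V), Gen y e ∧ y.charpoly = p * r ∧
      Gen ((g : End F V) * y) f ∧ ((g : End F V) * y).charpoly = P ∧
      ∃ c : End F V, LinearMap.det c = r.coeff 0 ∧ Commute c y := by
  obtain ⟨H, z, e, y, u, t, f, s, h1, h2, h3, h4, h5, h6, h7, h8, h9⟩ :=
    exists_factor2_aux g hg hn hp hpd hp0 hP hPd (-r.coeff 1)
  have hi : H ≤ H.comap y := fun x hx => by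
    rw [mem_comap, h4 ⟨x, hx⟩]; exact (z _).2
  have hQ : finrank F (V ⧸ H) = 2 := by have := H.finrank_quotient_add_finrank; omega
  set y' := H.mapQ H y hi
  have i1 : ∀ x, H.mkQ (y x) = y' (H.mkQ x) := fun _ => rfl
  have i2 : ∀ (q : F[X]) x, H.mkQ (aeval y q x) = aeval y' q (H.mkQ x) := fun q x =>
    ev_intertwine H.mkQ i1 x q
  have i3 : ∀ (q : F[X]) (x : H), aeval y q x = aeval z q x := fun q x =>
    (ev_intertwine (z := z) (y := y) H.subtype (fun x => (h4 x).symm) x q).symm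
  have i4 : ∀ x ∈ H, aeval y p x = 0 := fun x hx => by
    rw [i3 p ⟨x, hx⟩, ← h3, LinearMap.aeval_self_charpoly]; rfl
  have q1 : y' (H.mkQ u) = H.mkQ t := (Submodule.Quotient.eq _).2 h5
  have q2 : y' (H.mkQ t) = s • H.mkQ u + (-r.coeff 1) • H.mkQ t := (Submodule.Quotient.eq _).2 h6
  have g1 : Gen y' (H.mkQ u) := fun Y hY hi => by
    rw [eq_top_iff]
    intro v _
    obtain ⟨v, rfl⟩ := H.mkQ_surjective v
    obtain ⟨a, b, e⟩ := h7 v
    rw [show H.mkQ v = a • H.mkQ u + b • H.mkQ t from (Submodule.Quotient.eq _).2 e]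
    exact add_mem (smul_mem _ _ hY) (smul_mem _ _ (q1 ▸ hi _ hY))
  have g2 : y'.charpoly = X ^ 2 + C (r.coeff 1) * X - C s := g1.charpoly_eq (by monicity!)
    (by rw [hQ]; compute_degree!) (by
      simp only [ev_apply, sq, map_sub, map_add, map_mul, aeval_X, aeval_C, LinearMap.sub_apply,
        LinearMap.add_apply, End.mul_apply, q1, q2, Module.algebraMap_end_apply]
      module)
  have d1 : LinearMap.det y' = -s := by
    rw [LinearMap.det_eq_sign_charpoly_coeff, g2, hQ]; simp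
  have d2 : LinearMap.det y = (-1) ^ n * p.coeff 0 * -s := by
    rw [LinearMap.det_eq_det_mul_det H y hi, show y.restrict hi = z from LinearMap.ext fun x =>
      Subtype.ext (h4 x), LinearMap.det_eq_sign_charpoly_coeff z, h3, h1, ← d1]
  have d3 : -s = r.coeff 0 := by
    have h5 := LinearMap.det_eq_sign_charpoly_coeff ((g : End F V) * y)
    rw [h9, hdet, map_mul, d2, hn] at h5
    have h6 : LinearMap.det (g : End F V) * (-1) ^ n * p.coeff 0 * (-s - r.coeff 0) = 0 := by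
      linear_combination h5
    simpa [(LinearEquiv.isUnit_det' g).ne_zero, hp0, sub_eq_zero] using h6
  have g3 : y'.charpoly = r := by
    rw [g2, sub_eq_add_neg, ← C_neg, d3]
    conv_rhs => rw [hr.as_sum, hrd]
    simp [Finset.sum_range_succ]
    ring
  have i5 : ∀ x, aeval y r x ∈ H := fun x => by
    rw [← Quotient.mk_eq_zero, ← mkQ_apply, i2, ← g3, LinearMap.aeval_self_charpoly]; rfl
  obtain ⟨A, B, hAB⟩ := hc
  have i6 : ∀ x, aeval y (A * p) x + aeval y (B * r) x = x := fun x => by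
    rw [← LinearMap.add_apply, ← map_add, hAB]; simp
  have i7 : ∀ x, aeval y (B * r) x ∈ H := fun x => by rw [mul_comm, map_mul]; exact i5 _
  have i8 : ∀ x, aeval y (p * r) x = 0 := fun x => by rw [map_mul]; exact i4 _ (i5 x)
  have g4 : Gen y (e + aeval y (A * p) u) := fun Y hY hi => by
    have a1 : (e : V) ∈ Y := by
      have := ev_mem hi hY (B * r)
      rwa [ev_apply, map_add, ← End.mul_apply, ← map_mul,
        show B * r * (A * p) = B * A * (p * r) by ring, map_mul _ (B * A), End.mul_apply, i8, map_zero,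
        add_zero, ← zero_add (aeval y _ _), ← map_zero (aeval y A), ← i4 e e.2, ← End.mul_apply,
        ← map_mul, i6] at this
    have a2 : H ≤ Y := fun x hx => by
      obtain ⟨q, hq⟩ := h2.surj ⟨x, hx⟩
      have := ev_mem hi a1 q
      rwa [ev_apply, i3, ← ev_apply, hq] at this
    have a3 : u ∈ Y := by
      rw [← i6 u]
      exact add_mem (by simpa using sub_mem hY a1) (a2 (i7 u))
    have a4 : t ∈ Y := by simpa using sub_mem (hi _ a3) (a2 h5)
    rw [eq_top_iff]
    intro v _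
    obtain ⟨a, b, e⟩ := h7 v
    simpa using add_mem (a2 e) (add_mem (smul_mem _ a a3) (smul_mem _ b a4))
  set c := aeval y (1 + (X - 1) * (A * p))
  have c1 : ∀ x ∈ H, c x = x := fun x hx => by simp [c, i4 x hx]
  have c2 : H ≤ H.comap c := fun x hx => by rwa [mem_comap, c1 x hx]
  refine ⟨y, _, f, g4, g4.charpoly_eq (hp.mul hr) (by rw [hp.natDegree_mul hr]; omega) (i8 _), h8, h9,
    c, ?_, ?_⟩
  · rw [LinearMap.det_eq_det_mul_det H c c2, show c.restrict c2 = 1 from LinearMap.ext fun x =>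
      Subtype.ext (c1 x x.2), map_one, one_mul, ← d3, ← d1]
    congr 1
    ext v
    refine (Submodule.Quotient.eq _).2 ?_
    have : c - y = aeval y (B * r * (1 - X)) := by
      rw [show B * r * (1 - X) = 1 + (X - 1) * (A * p) - X by linear_combination (1 - X) * hAB]
      simp [c]
    have := LinearMap.congr_fun this v
    rw [map_mul] at this
    exact (show c v - y v = _ from this) ▸ i7 _
  · simpa only [aeval_X] using (Commute.all (1 + (X - 1) * (A * p)) X).map (aeval y : F[X] →ₐ[F] _)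

end Cfsg.Agent.Lin
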