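import Mathlib
import Cfsg.Agent.Lin.Unip
import Cfsg.Agent.KSG.SimElemDiv

/-!
Products of conjugates in `GL(V)` with prescribed determinants of the conjugating elements.
-/

set_option autoImplicit false

namespace Cfsg.Agent.Lin

open Module Submodule Polynomial KSG LinearMap.GeneralLinearGroup

variable {F V W : Type*} [Field F] [AddCommGroup V] [Module F V] [AddCommGroup W] [Module F W]

/-- the determinant -/
noncomputable def dt : (End F V)ˣ →* Fˣ := Units.map LinearMap.det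

theorem dt_val (c : (End F V)ˣ) : (dt c : F) = LinearMap.det c.1 := rfl

/-- transport along a linear equivalence -/
noncomputable abbrev cg (e : V ≃ₗ[F] W) : (End F V)ˣ ≃* (End F W)ˣ := congrLinearEquiv e

theorem cg_apply (e : V ≃ₗ[F] W) (x : (End F V)ˣ) (w : W) : (cg e x).1 w = e (x.1 (e.symm w)) := rfl

theorem dt_cg (e : V ≃ₗ[F] W) (x : (End F V)ˣ) : dt (cg e x) = dt x :=
  Units.ext (LinearMap.det_conj x.1 e)

theorem exists_cg {x : (End F V)ˣ} {y : (End F W)ˣ} (h : Sim x.1 y.1) : ∃ e, cg e x = y :=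
  ⟨h.choose, Units.ext (conj_eq_of_comm _ h.choose_spec)⟩

theorem sim_cg (e : V ≃ₗ[F] W) (x : (End F V)ˣ) : Sim x.1 (cg e x).1 :=
  ⟨e, fun v => by simp⟩

theorem isConj_of_sim {x y : (End F V)ˣ} (h : Sim x.1 y.1) : IsConj x y := by
  obtain ⟨e, rfl⟩ := exists_cg h
  exact isConj_iff.2 ⟨ofLinearEquiv e, Units.ext (by ext; rfl)⟩

theorem sim_of_isConj {x y : (End F V)ˣ} (h : IsConj x y) : Sim x.1 y.1 := by
  obtain ⟨c, rfl⟩ := isConj_iff.1 h
  exact sim_cg (toLinearEquiv c) x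

theorem dt_isConj {x y : (End F V)ˣ} (h : IsConj x y) : dt x = dt y :=
  isConj_iff_eq.1 (dt.map_isConj h)

@[simp] theorem inv_app (c : (End F V)ˣ) (v : V) : (c⁻¹).1 (c.1 v) = v := by
  rw [← End.mul_apply, Units.inv_mul, End.one_apply]

@[simp] theorem app_inv (c : (End F V)ˣ) (v : V) : c.1 ((c⁻¹).1 v) = v := inv_app c⁻¹ v

theorem unit_inj (c : (End F V)ˣ) : Function.Injective c.1 := (toLinearEquiv c).injective

/-- block sum -/
def bs (a : (End F V)ˣ) (b : (End F W)ˣ) : (End F (V × W))ˣ :=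
  ⟨a.1.prodMap b.1, (a⁻¹).1.prodMap (b⁻¹).1, by ext <;> simp, by ext <;> simp⟩

theorem bs_val (a : (End F V)ˣ) (b : (End F W)ˣ) : (bs a b).1 = a.1.prodMap b.1 := rfl

theorem bs_mul (a c : (End F V)ˣ) (b d : (End F W)ˣ) : bs a b * bs c d = bs (a * c) (b * d) := rfl

theorem bs_inv (a : (End F V)ˣ) (b : (End F W)ˣ) : (bs a b)⁻¹ = bs a⁻¹ b⁻¹ := rfl

theorem bs_one : bs (1 : (End F V)ˣ) (1 : (End F W)ˣ) = 1 := rfl

/-- scalars -/
def sc (V : Type*) [AddCommGroup V] [Module F V] : Fˣ →* (End F V)ˣ :=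
  Units.map (algebraMap F (End F V))

@[simp] theorem sc_apply (a : Fˣ) (v : V) : (sc V a).1 v = (a : F) • v := rfl

theorem sc_comm (a : Fˣ) (x : (End F V)ˣ) : sc V a * x = x * sc V a := Units.ext (by ext; simp)

theorem bs_sc (a : Fˣ) : bs (sc V a) (sc W a) = sc (V × W) a := rfl

/-- `M` is a product of conjugates of `x` by elements with determinants given by the list -/
def Pr (x : (End F V)ˣ) : List Fˣ → (End F V)ˣ → Prop
  | [], M => M = 1
  | d :: l, M => ∃ c N, dt c = d ∧ Pr x l N ∧ M = c * x * c⁻¹ * N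

def PG (k : ℕ) (x M : (End F V)ˣ) : Prop := ∃ l : List Fˣ, l.length = k ∧ Pr x l M

def PA (k : ℕ) (x M : (End F V)ˣ) : Prop := ∀ l : List Fˣ, l.length = k → Pr x l M

def Full (x : (End F V)ˣ) : Prop := ∀ d, ∃ c, dt c = d ∧ c * x = x * c

def NS (x : (End F V)ˣ) : Prop := ∃ v, x.1 v ∉ F ∙ v

def Cy (x : (End F V)ˣ) : Prop := ∃ v, Gen x.1 v

/-- a one-dimensional direct summand -/
def Sm (x : (End F V)ˣ) : Prop :=
  ∃ (u : V) (ψ : Dual F V) (μ : F), ψ u = 1 ∧ x.1 u = μ • u ∧ ∀ v, ψ (x.1 v) = μ * ψ v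

variable {x y M N : (End F V)ˣ} {z Z : (End F W)ˣ} {l l' : List Fˣ} {k j : ℕ}

theorem Pr.dt_eq (h : Pr x l M) : dt M = dt x ^ l.length := by
  induction l generalizing M with
  | nil => simp [show M = 1 from h]
  | cons d l ih =>
    obtain ⟨c, N, -, h, rfl⟩ := h
    simp [ih h, pow_succ']

theorem Pr.append (h : Pr x l M) (h' : Pr x l' N) : Pr x (l ++ l') (M * N) := by
  induction l generalizing M with
  | nil => simpa [show M = 1 from h]
  | cons d l ih =>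
    obtain ⟨c, N, e, h, rfl⟩ := h
    exact ⟨c, _, e, ih h, mul_assoc _ _ _⟩

theorem Pr.conj (h : Pr x l M) (c : (End F V)ˣ) : Pr x (l.map (dt c * ·)) (c * M * c⁻¹) := by
  induction l generalizing M with
  | nil => simp [show M = 1 from h, Pr]
  | cons d l ih =>
    obtain ⟨a, N, rfl, h, rfl⟩ := h
    exact ⟨c * a, _, map_mul _ _ _, ih h, by group⟩

theorem Pr.cg (h : Pr x l M) (e : V ≃ₗ[F] W) : Pr (cg e x) l (cg e M) := by
  induction l generalizing M with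
  | nil => rw [show M = 1 from h, map_one]; rfl
  | cons d l ih =>
    obtain ⟨a, N, rfl, h, rfl⟩ := h
    exact ⟨_, _, dt_cg e a, ih h, by simp only [map_mul, map_inv]⟩

theorem Pr.of_conj {c : (End F V)ˣ} (h : Pr (c * x * c⁻¹) l M) : Pr x (l.map (· * dt c)) M := by
  induction l generalizing M with
  | nil => exact h
  | cons d l ih =>
    obtain ⟨a, N, rfl, h, rfl⟩ := h
    exact ⟨a * c, _, map_mul _ _ _, ih h, by group⟩

theorem Pr.sc_mul (h : Pr x l M) (a : Fˣ) : Pr (sc V a * x) l (sc V (a ^ l.length) * M) := by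
  induction l generalizing M with
  | nil => simp [show M = 1 from h, Pr]
  | cons d l ih =>
    obtain ⟨c, N, rfl, h, rfl⟩ := h
    exact ⟨c, _, rfl, ih h, Units.ext (by ext; simp [-map_pow, pow_succ', smul_smul])⟩

theorem pr_one (c : (End F V)ˣ) : Pr x [dt c] (c * x * c⁻¹) := ⟨c, 1, rfl, rfl, by simp⟩

theorem PA.pg (h : PA k x M) : PG k x M := ⟨List.replicate k 1, by simp, h _ (by simp)⟩

theorem PG.dt_eq (h : PG k x M) : dt M = dt x ^ k := by
  obtain ⟨l, rfl, h⟩ := h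
  exact h.dt_eq

theorem PG.mul (h : PG k x M) (h' : PG j x N) : PG (k + j) x (M * N) := by
  obtain ⟨l, rfl, h⟩ := h
  obtain ⟨l', rfl, h'⟩ := h'
  exact ⟨_, List.length_append, h.append h'⟩

theorem PA.mul (h : PA k x M) (h' : PA j x N) : PA (k + j) x (M * N) := fun l hl => by
  rw [← l.take_append_drop k]
  exact (h _ (by simp [hl])).append (h' _ (by simp [hl]))

theorem PG.conj (h : PG k x M) (h' : IsConj M N) : PG k x N := by
  obtain ⟨l, rfl, h⟩ := h
  obtain ⟨c, rfl⟩ := isConj_iff.1 h'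
  exact ⟨_, by simp, h.conj c⟩

theorem PA.conj (h : PA k x M) (h' : IsConj M N) : PA k x N := fun l hl => by
  obtain ⟨c, rfl⟩ := isConj_iff.1 h'
  simpa [Function.comp_def] using (h (l.map ((dt c)⁻¹ * ·)) (by simp [hl])).conj c

theorem pg_one (h : IsConj x y) : PG 1 x y := by
  obtain ⟨c, rfl⟩ := isConj_iff.1 h
  exact ⟨_, rfl, pr_one c⟩

theorem PG.of_conj (h : PG k y M) (h' : IsConj x y) : PG k x M := by
  obtain ⟨l, rfl, h⟩ := h
  obtain ⟨c, rfl⟩ := isConj_iff.1 h'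
  exact ⟨_, by simp, h.of_conj⟩

theorem pg_pow (x : (End F V)ˣ) (k : ℕ) : PG k x (x ^ k) := by
  induction k with
  | zero => exact ⟨[], rfl, rfl⟩
  | succ k ih => exact pow_succ x k ▸ ih.mul (pg_one (IsConj.refl x))

theorem Full.pa (hx : Full x) (h : PG k x M) : PA k x M := by
  obtain ⟨l, rfl, h⟩ := h
  induction l generalizing M with
  | nil => exact fun l hl => List.length_eq_zero_iff.1 hl ▸ h
  | cons d l ih =>
    obtain ⟨c, N, rfl, h, rfl⟩ := h
    rintro (_ | ⟨d, l'⟩) hl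
    · simp at hl
    obtain ⟨a, e1, e2⟩ := hx ((dt c)⁻¹ * d)
    exact ⟨c * a, N, by simp [e1], ih h _ (by simpa using hl), by
      rw [mul_assoc c a, e2]; group⟩

theorem Full.pa_succ (hN : Full (x * N)) (h : PA k x N) : PA (k + 1) x (x * N) := by
  rintro (_ | ⟨d, l⟩) hl
  · simp at hl
  obtain ⟨c, rfl, e⟩ := hN d
  exact ⟨c, _, rfl, (h.conj (isConj_iff.2 ⟨c, rfl⟩)) l (by simpa using hl), by
    rw [← mul_inv_eq_iff_eq_mul.2 e]; group⟩

theorem Full.conj (h : Full x) (h' : IsConj x y) : Full y := fun d => by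
  obtain ⟨a, rfl⟩ := isConj_iff.1 h'
  obtain ⟨c, rfl, e⟩ := h d
  exact ⟨a * c * a⁻¹, by simp, by rw [show a * c * a⁻¹ * (a * x * a⁻¹) = a * (c * x) * a⁻¹ by group, e]; group⟩

theorem NS.sim (h : NS x) (h' : Sim x.1 z.1) : NS z := by
  obtain ⟨v, hv⟩ := h
  obtain ⟨e, he⟩ := h'
  refine ⟨e v, fun h => hv ?_⟩
  obtain ⟨c, hc⟩ := mem_span_singleton.1 h
  exact mem_span_singleton.2 ⟨c, e.injective (by rw [map_smul, hc, he])⟩

theorem NS.inv (h : NS x) : NS x⁻¹ := by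
  obtain ⟨v, hv⟩ := h
  refine ⟨v, fun h => hv ?_⟩
  obtain ⟨c, hc⟩ := mem_span_singleton.1 h
  have h1 : c • x.1 v = v := by rw [← map_smul, hc, app_inv]
  have h2 : c ≠ 0 := by
    rintro rfl
    exact hv (by simp [show v = 0 by simpa using h1.symm])
  exact mem_span_singleton.2 ⟨c⁻¹, by rw [inv_smul_eq_iff₀ h2, h1]⟩

theorem NS.sc_mul (h : NS x) (a : Fˣ) : NS (sc V a * x) := by
  obtain ⟨v, hv⟩ := h
  exact ⟨v, fun h => hv (by simpa using smul_mem _ (a⁻¹ : Fˣ).1 h)⟩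

theorem NS.bs (h : NS x) (z : (End F W)ˣ) : NS (bs x z) := by
  obtain ⟨v, hv⟩ := h
  refine ⟨(v, 0), fun h => hv ?_⟩
  obtain ⟨c, hc⟩ := mem_span_singleton.1 h
  exact mem_span_singleton.2 ⟨c, congrArg Prod.fst hc⟩

theorem eq_sc_of_not_NS [Nontrivial V] (h : ¬ NS x) : ∃ a, x = sc V a := by
  obtain ⟨a, ha⟩ := LinearMap.exists_eq_smul_id_of_forall_notLinearIndependent (f := x.1)
    fun v hli => by
      obtain ⟨c, hc⟩ := mem_span_singleton.1 (not_not.1 (not_exists.1 h v))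
      simpa using (LinearIndependent.pair_iff.1 hli) c (-1) (by simp [hc])
  obtain ⟨v, hv⟩ := exists_ne (0 : V)
  exact ⟨Units.mk0 a fun e => hv (unit_inj x (by simp [ha, e])), Units.ext ha⟩

theorem Gen.sim {a : End F V} {b : End F W} {v : V} (h : Gen a v) {e : V ≃ₗ[F] W}
    (he : ∀ v, e (a v) = b (e v)) : Gen b (e v) := fun X hv hi => by
  have := h (X.comap (e : V →ₗ[F] W)) hv fun x hx => by simpa [he] using hi _ hx
  exact eq_top_iff.2 fun w _ => by simpa using this.ge (mem_top (x := e.symm w))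

theorem Cy.sim (h : Cy x) (h' : Sim x.1 z.1) : Cy z := ⟨_, h.choose_spec.sim h'.choose_spec⟩

theorem Sm.sim (h : Sm x) (h' : Sim x.1 z.1) : Sm z := by
  obtain ⟨u, ψ, μ, h1, h2, h3⟩ := h
  obtain ⟨e, he⟩ := h'
  refine ⟨e u, ψ ∘ₗ e.symm, μ, by simpa, by rw [← he, h2, map_smul], fun w => ?_⟩
  obtain ⟨v, rfl⟩ := e.surjective w
  simp [← he, h3]

theorem Sm.inv (h : Sm x) : Sm x⁻¹ := by
  obtain ⟨u, ψ, μ, h1, h2, h3⟩ := h
  have h4 : μ ≠ 0 := by
    rintro rfl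
    rw [unit_inj x (show x.1 u = x.1 0 by simpa using h2)] at h1
    simp at h1
  refine ⟨u, ψ, μ⁻¹, h1, unit_inj x (by simp [h2, h4]), fun v => ?_⟩
  rw [eq_inv_mul_iff_mul_eq₀ h4, ← h3, app_inv]

theorem Sm.bs (h : Sm x) (z : (End F W)ˣ) : Sm (bs x z) := by
  obtain ⟨u, ψ, μ, h1, h2, h3⟩ := h
  exact ⟨(u, 0), ψ ∘ₗ LinearMap.fst F V W, μ, h1, by simp [bs_val, h2], fun v => h3 _⟩

theorem sim_bs_comm (x : (End F V)ˣ) (z : (End F W)ˣ) : Sim (bs x z).1 (bs z x).1 :=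
  ⟨LinearEquiv.prodComm F V W, fun _ => rfl⟩

theorem sm_sc [Nontrivial V] (a : Fˣ) : Sm (sc V a) := by
  obtain ⟨u, hu⟩ := exists_ne (0 : V)
  obtain ⟨ψ, h, -⟩ := exists_dual_one (D := (⊥ : Submodule F V)) (w := u) (by simpa)
  exact ⟨u, ψ, a, h, rfl, fun v => by simp⟩

theorem pr_pow (x y : (End F V)ˣ) (k : ℕ) :
    Pr x ((List.range k).map (dt y ^ ·)) ((x * y) ^ k * (y ^ k)⁻¹) := by
  induction k with
  | zero => simp [Pr]
  | succ k ih =>
    rw [List.range_succ, List.map_append, show (x * y) ^ (k + 1) * (y ^ (k + 1))⁻¹ =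
      (x * y) ^ k * (y ^ k)⁻¹ * (y ^ k * x * (y ^ k)⁻¹) by rw [pow_succ, pow_succ']; group]
    exact ih.append (by simpa using pr_one (y ^ k))

variable [FiniteDimensional F V] [FiniteDimensional F W]

theorem dt_bs (a : (End F V)ˣ) (b : (End F W)ˣ) : dt (bs a b) = dt a * dt b :=
  Units.ext (LinearMap.det_prodMap _ _)

theorem dt_sc (a : Fˣ) : dt (sc V a) = a ^ finrank F V := Units.ext (by
  rw [dt_val, show (sc V a).1 = (a : F) • 1 from rfl, LinearMap.det_smul]; simp)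

theorem Pr.bs (h : Pr x l M) (h' : Pr z l' Z) (hl : l.length = l'.length) :
    Pr (bs x z) (List.zipWith (· * ·) l l') (bs M Z) := by
  induction l generalizing l' M Z with
  | nil =>
    obtain rfl := List.length_eq_zero_iff.1 hl.symm
    rw [show M = 1 from h, show Z = 1 from h']
    rfl
  | cons d l ih =>
    obtain _ | ⟨d', l'⟩ := l'
    · simp at hl
    obtain ⟨c, N, rfl, h, rfl⟩ := h
    obtain ⟨c', N', rfl, h', rfl⟩ := h'
    exact ⟨Lin.bs c c', _, dt_bs _ _, ih h h' (by simpa using hl), rfl⟩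

theorem PG.bs (h : PG k x M) (h' : PG k z Z) : PG k (bs x z) (bs M Z) := by
  obtain ⟨l, rfl, h⟩ := h
  obtain ⟨l', e, h'⟩ := h'
  exact ⟨_, by simp [e], h.bs h' e.symm⟩

theorem PA.bs (h : PA k x M) (h' : PG k z Z) : PA k (bs x z) (bs M Z) := fun l hl => by
  obtain ⟨l', e, h'⟩ := h'
  convert (h (List.zipWith (· / ·) l l') (by simp [hl, e])).bs h' (by simp [hl, e]) using 1
  exact List.ext_getElem (by simp [hl, e]) fun i _ _ => by simp

/-- a dilatation or transvection as a unit -/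
noncomputable def dl (ψ : Dual F V) (u : V) (h : 1 + ψ u ≠ 0) : (End F V)ˣ :=
  ofLinearEquiv (LinearEquiv.dilatransvection (Ne.isUnit h))

omit [FiniteDimensional F V] in
theorem dl_apply (ψ : Dual F V) (u : V) (h : 1 + ψ u ≠ 0) (v : V) :
    (dl ψ u h).1 v = v + ψ v • u := LinearEquiv.dilatransvection.apply (h := Ne.isUnit h)

theorem dt_dl (ψ : Dual F V) (u : V) (h : 1 + ψ u ≠ 0) : (dt (dl ψ u h) : F) = 1 + ψ u :=
  LinearMap.transvection.det ψ u

theorem Sm.full (h : Sm x) : Full x := fun d => by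
  obtain ⟨u, ψ, μ, h1, h2, h3⟩ := h
  refine ⟨dl ψ (((d : F) - 1) • u) (by simp [h1]), Units.ext (by simp [dt_dl, h1]),
    Units.ext (LinearMap.ext fun v => ?_)⟩
  simp only [Units.val_mul, End.mul_apply, dl_apply, map_add, map_smul, h2, h3, smul_smul]
  congr 2
  ring

theorem Cy.inv (h : Cy x) : Cy x⁻¹ := ⟨_, h.choose_spec.inv x.mul_inv⟩

omit [FiniteDimensional F V] in
theorem Cy.sc_mul (h : Cy x) (a : Fˣ) : Cy (sc V a * x) :=
  ⟨_, fun X hv hi => h.choose_spec X hv fun v hv => by simpa using X.smul_mem (a⁻¹ : Fˣ).1 (hi v hv)⟩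

omit [FiniteDimensional F V] in
theorem Cy.ns (h : Cy x) (hn : 2 ≤ finrank F V) : NS x := by
  obtain ⟨v, hv⟩ := h
  refine ⟨v, fun h => ?_⟩
  have h1 := hv _ (mem_span_singleton_self v) fun w hw => by
    obtain ⟨c, rfl⟩ := mem_span_singleton.1 hw
    exact map_smul x.1 c v ▸ smul_mem _ c h
  have h2 := finrank_span_le_card (R := F) ({v} : Set V)
  rw [h1, finrank_top] at h2
  simp at h2
  omega

theorem Cy.isConj (h : Cy x) (h' : Cy y) (e : x.1.charpoly = y.1.charpoly) : IsConj x y :=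
  isConj_of_sim (h.choose_spec.conj h'.choose_spec e)

theorem Cy.bs (h : Cy x) (h' : Cy z) (hc : IsCoprime x.1.charpoly z.1.charpoly) : Cy (bs x z) := by
  obtain ⟨v, hv⟩ := h
  obtain ⟨w, hw⟩ := h'
  obtain ⟨a, b, e⟩ := hc
  refine ⟨(v, w), fun X h1 hi => ?_⟩
  have h2 : (v, 0) ∈ X := by
    convert ev_mem hi h1 (b * z.1.charpoly) using 1
    ext1
    · refine .trans ?_ (ev_intertwine (LinearMap.fst F V W) (y := x.1) (fun _ => rfl) _ _).symm
      rw [eq_sub_of_add_eq' e, map_sub, ev_mul, ev_charpoly, ev_one]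
      simp
    · refine .trans ?_ (ev_intertwine (LinearMap.snd F V W) (y := z.1) (fun _ => rfl) _ _).symm
      rw [ev_mul, ev_charpoly, map_zero]
  have h3 := hv (X.comap (LinearMap.inl F V W)) h2 fun u hu => by simpa [bs_val] using hi _ hu
  have h4 := hw (X.comap (LinearMap.inr F V W)) (by simpa using X.sub_mem h1 h2) fun u hu => by
    simpa [bs_val] using hi _ hu
  exact eq_top_iff.2 fun u _ => by
    simpa using X.add_mem (h3.ge (mem_top (x := u.1))) (h4.ge (mem_top (x := u.2)))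

theorem dt_eq_coeff (x : (End F V)ˣ) : (dt x : F) = (-1) ^ finrank F V * x.1.charpoly.coeff 0 :=
  LinearMap.det_eq_sign_charpoly_coeff _

theorem charpoly_bs (x : (End F V)ˣ) (z : (End F W)ˣ) :
    (bs x z).1.charpoly = x.1.charpoly * z.1.charpoly := LinearMap.charpoly_prodMap _ _

theorem Cy.sm (h : Cy x) {p : F[X]} {μ : F} (e : x.1.charpoly = p * (X - C μ)) (hp : p.eval μ ≠ 0) :
    Sm x := by
  obtain ⟨v, hv⟩ := h
  have h1 : ∀ f, ev x.1 v ((X - C μ) * f) = x.1 (ev x.1 v f) - μ • ev x.1 v f := fun f => by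
    simp [ev_apply]
  obtain ⟨ψ, h2, h3⟩ := exists_dual_one (D := LinearMap.range (x.1 - μ • 1)) (w := ev x.1 v p) (by
    rintro ⟨w, hw⟩
    obtain ⟨f, rfl⟩ := hv.surj w
    have := (hv.ker_eq ((X - C μ) * f - p)).1 (by rw [map_sub, h1, ← hw]; simp)
    simpa [e, hp] using eval_dvd (x := μ) this)
  refine ⟨_, ψ, μ, h2, ?_, fun w => ?_⟩
  · rw [← sub_eq_zero, ← h1, mul_comm, ← e, ev_charpoly]
  · simpa [sub_eq_zero] using h3 _ ⟨w, rfl⟩

theorem finrank_ker_dual {ψ : Dual F V} (h : ψ ≠ 0) {n : ℕ} (hn : finrank F V = n + 1) :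
    finrank F (LinearMap.ker ψ) = n := by
  have := Module.Dual.finrank_ker_add_one_of_ne_zero h
  omega

theorem Cy.exists_poly (h : Cy x) (h' : Sm x) :
    ∃ p μ, p.Monic ∧ x.1.charpoly = p * (X - C μ) ∧ p.eval μ ≠ 0 := by
  obtain ⟨v, hv⟩ := h
  obtain ⟨u, ψ, μ, h1, h2, h3⟩ := h'
  have h0 : u ≠ 0 := by rintro rfl; simp at h1
  obtain ⟨p, hp⟩ := dvd_iff_isRoot.2 ((End.hasEigenvalue_iff_isRoot_charpoly x.1 μ).1
    (End.hasEigenvalue_of_hasEigenvector ⟨End.mem_eigenspace_iff.2 h2, h0⟩))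
  have hm : p.Monic := (monic_X_sub_C μ).of_mul_monic_left (hp ▸ x.1.charpoly_monic)
  refine ⟨p, μ, hm, hp.trans (mul_comm _ _), fun e => ?_⟩
  obtain ⟨f, hf⟩ := hv.surj u
  have h4 : ∀ f, ψ (ev x.1 v f) = f.eval μ * ψ v := fun f => by
    rw [ev_intertwine (y := μ • 1) ψ (fun w => by simp [h3]), ev_apply,
      End.aeval_apply_of_mem_apply_eq_smul (μ := μ) rfl, smul_eq_mul]
  have h5 := (hv.ker_eq ((X - C μ) * f)).1 (by simp [ev_mul, hf, h2])
  rw [hp, mul_dvd_mul_iff_left (X_sub_C_ne_zero μ)] at h5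
  rw [← hf, h4, eval_eq_zero_of_dvd_of_eval_eq_zero h5 e] at h1
  simp at h1

end Cfsg.Agent.Lin
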