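import Mathlib
import Cfsg.Agent.Lin.CovA

/-!
Factorisation lemmas on units: `T1` (Sourour–Lev), `T1p` (prescribed determinant of the
conjugating element), `T2` (two scalar blocks), splitting off a cyclic block.
-/

set_option autoImplicit false

namespace Cfsg.Agent.Lin

open Module Submodule Polynomial KSG LinearMap.GeneralLinearGroup

variable {F V W U : Type*} [Field F] [AddCommGroup V] [Module F V] [AddCommGroup W] [Module F W]
  [AddCommGroup U] [Module F U]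

theorem sim_bs {V' W' : Type*} [AddCommGroup V'] [Module F V'] [AddCommGroup W'] [Module F W']
    {a : (End F V)ˣ} {a' : (End F V')ˣ} {b : (End F W)ˣ} {b' : (End F W')ˣ}
    (h : Sim a.1 a'.1) (h' : Sim b.1 b'.1) : Sim (bs a b).1 (bs a' b').1 :=
  ⟨h.choose.prodCongr h'.choose, fun _ => Prod.ext (h.choose_spec _) (h'.choose_spec _)⟩

theorem sim_assoc (a : (End F V)ˣ) (b : (End F W)ˣ) (c : (End F U)ˣ) :
    Sim (bs (bs a b) c).1 (bs a (bs b c)).1 := ⟨LinearEquiv.prodAssoc F _ _ _, fun _ => rfl⟩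

theorem NS.nontrivial {x : (End F V)ˣ} (h : NS x) : Nontrivial V :=
  ⟨_, 0, fun e => h.choose_spec ((e : x.1 _ = _) ▸ zero_mem _)⟩

variable [FiniteDimensional F V] [FiniteDimensional F W] [FiniteDimensional F U]

theorem sim_sc (h : finrank F V = finrank F W) (a : Fˣ) : Sim (sc V a).1 (sc W a).1 :=
  ⟨LinearEquiv.ofFinrankEq V W h, fun v => by simp⟩

omit [FiniteDimensional F V] in
theorem sim_bs_triv (h : finrank F W = 0) (a : (End F V)ˣ) (b : (End F W)ˣ) : Sim (bs a b).1 a.1 :=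
  have := finrank_zero_iff.1 h
  have := uniqueOfSubsingleton (0 : W)
  ⟨LinearEquiv.prodUnique, fun _ => rfl⟩

theorem exists_coprod (j : V →ₗ[F] U) (j' : W →ₗ[F] U) (hs : ∀ u, ∃ a b, j a + j' b = u)
    (hd : finrank F V + finrank F W = finrank F U) :
    ∃ e : (V × W) ≃ₗ[F] U, ∀ p, e p = j p.1 + j' p.2 := by
  have h : Function.Surjective (j.coprod j') := fun u =>
    let ⟨a, b, h⟩ := hs u; ⟨(a, b), h⟩
  exact ⟨.ofBijective _ ⟨(LinearMap.injective_iff_surjective_of_finrank_eq_finrank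
    (by simpa)).2 h, h⟩, fun _ => rfl⟩

theorem exists_unit {a : End F V} (h : LinearMap.det a ≠ 0) : ∃ x : (End F V)ˣ, x.1 = a :=
  (a.isUnit_iff_ker_eq_bot).2 (not_not.1 (mt LinearMap.det_eq_zero_iff_ker_ne_bot.2 h))

theorem exists_unit' {a : End F V} (h : a.charpoly.coeff 0 ≠ 0) : ∃ x : (End F V)ˣ, x.1 = a :=
  exists_unit (by simp [LinearMap.det_eq_sign_charpoly_coeff, h])

theorem coeff_ne (x : (End F V)ˣ) : x.1.charpoly.coeff 0 ≠ 0 := fun h =>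
  (dt x).ne_zero (by simp [dt_eq_coeff, h])

theorem exists_cy {P : F[X]} (hP : P.Monic) (hd : P.natDegree = finrank F V) (h0 : P.coeff 0 ≠ 0) :
    ∃ x : (End F V)ˣ, Cy x ∧ x.1.charpoly = P := by
  have := (AdjoinRoot.powerBasis hP.ne_zero).finite
  obtain ⟨a, ha⟩ := exists_unit' (charpoly_lmul_root hP ▸ h0)
  have h := sim_cg (LinearEquiv.ofFinrankEq _ V ((finrank_adjoinRoot P).trans hd)) a
  refine ⟨_, Cy.sim ⟨1, gen_of_surj fun y => ?_⟩ h, by rw [← h.charpoly, ha, charpoly_lmul_root hP]⟩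
  obtain ⟨f, rfl⟩ := AdjoinRoot.mk_surjective y
  exact ⟨f, by rw [ev_apply, ha, aeval_algHom_apply]; simp⟩

theorem Chain.cy {x : (End F V)ˣ} {φ : Dual F V} (hc : Chain x.1 (LinearMap.ker φ)) {n : ℕ}
    (hn : finrank F V = n + 1) : Cy x := by
  let Φ : V →ₗ[F] (Fin n → F) := LinearMap.pi fun i => φ ∘ₗ (x.1 ^ (i : ℕ))
  obtain ⟨v, hv, hv0⟩ := Submodule.exists_mem_ne_zero_of_ne_bot
    (Φ.ker_ne_bot_of_finrank_lt (by simp [hn]))
  refine ⟨v, fun Y hY hi => by_contra fun h => hc.ev_ne hv0 (x.1.restrict hi).charpoly_monic ?_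
    fun i h' => congrFun hv ⟨i, ?_⟩⟩
  · rw [← show _ = ev x.1 v _ from ev_intertwine (z := x.1.restrict hi) Y.subtype (fun _ => rfl)
      ⟨v, hY⟩ _, ev_charpoly, map_zero]
  · have := finrank_lt h
    rw [LinearMap.charpoly_natDegree] at h'
    omega

theorem complete_sub {H : Submodule F V} {χ : Dual F V} {w : V} (hw : w ∈ H) (hw' : χ w ≠ 0)
    {ζ : End F V} (z1 : ∀ x ∈ H ⊓ LinearMap.ker χ, ζ x ∈ H) (z2 : Chain ζ (H ⊓ LinearMap.ker χ))
    {p : F[X]} (hp : p.Monic) (hpd : p.natDegree = finrank F H) (hp0 : p.coeff 0 ≠ 0) :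
    ∃ z : (End F H)ˣ, Cy z ∧ z.1.charpoly = p ∧ ∀ x : H, χ x = 0 → (z.1 x : V) = ζ x := by
  have hWr := finrank_inf_ker hw hw'
  obtain ⟨ζ', e1, e2⟩ := exists_ext ζ (D := H ⊓ LinearMap.ker χ) (w := w) (fun h => hw' h.2) 0
  have hζ' : ∀ x ∈ H, ζ' x ∈ H := fun x hx => by
    obtain ⟨c, d, hd, rfl⟩ := hyp_decomp inf_le_left hWr hw (fun h => hw' h.2) hx
    rw [map_add, map_smul, e1, e2 d hd]; simpa using z1 d hd
  have hc : Chain (ζ'.restrict hζ') (LinearMap.ker (χ ∘ₗ H.subtype)) := fun Y hY hi =>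
    eq_bot_iff.2 fun x hx => Subtype.ext <|
      (z2 (Y.map H.subtype) (by rintro _ ⟨x, hx, rfl⟩; exact ⟨x.2, hY hx⟩) (by
        rintro _ ⟨x, hx, rfl⟩
        exact ⟨_, hi x hx, e2 _ ⟨x.2, hY hx⟩⟩)).le ⟨x, hx, rfl⟩
  obtain ⟨z, e, a1, a2, a3⟩ := hc.complete hWr.symm hp (hpd.trans hWr.symm)
  obtain ⟨z, rfl⟩ := exists_unit' (a3 ▸ hp0)
  exact ⟨z, ⟨e, a2⟩, a3, fun x hx => by rw [a1 x hx]; exact e2 _ ⟨x.2, hx⟩⟩

theorem cy_sc (h : finrank F V = 1) (a : Fˣ) :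
    Cy (sc V a) ∧ (sc V a).1.charpoly = X - C (a : F) := by
  obtain ⟨v, hv, h1⟩ := finrank_eq_one_iff'.1 h
  have h2 : Gen (sc V a).1 v := fun Y hY _ => eq_top_iff.2 fun w _ => by
    obtain ⟨c, rfl⟩ := h1 w
    exact smul_mem _ _ hY
  exact ⟨⟨v, h2⟩, h2.charpoly_eq (monic_X_sub_C _) (by simp [h]) (by simp [ev_apply])⟩

/-- an operator stabilising a hyperplane, with a simple eigenvalue on the quotient -/
theorem sim_hyp {y : (End F V)ˣ} {ψ : Dual F V} (hψ : ψ ≠ 0) {z : (End F (LinearMap.ker ψ))ˣ}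
    (hy : ∀ x : LinearMap.ker ψ, y.1 x = z.1 x) {μ : Fˣ} (hμ : z.1.charpoly.eval (μ : F) ≠ 0)
    (hd : dt y = dt z * μ) : Sim (bs z (sc F μ)).1 y.1 := by
  obtain ⟨μ', h1, h2⟩ := exists_quot_scalar hψ hy
  obtain rfl : μ' = μ := mul_left_cancel₀ (dt z).ne_zero (h2.symm.trans (congrArg Units.val hd))
  have hz : Function.Surjective (z.1 - (μ : F) • (1 : End F (LinearMap.ker ψ))) := by
    rw [← LinearMap.injective_iff_surjective, ← LinearMap.ker_eq_bot, LinearMap.ker_eq_bot']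
    intro x hx
    have h6 := End.aeval_apply_of_mem_apply_eq_smul (p := z.1.charpoly) (sub_eq_zero.1 hx)
    rw [LinearMap.aeval_self_charpoly] at h6
    simpa [hμ] using h6.symm
  obtain ⟨u₀, hu₀⟩ := LinearMap.range_eq_top.1 (Module.Dual.range_eq_top_of_ne_zero hψ) 1
  obtain ⟨h, hh⟩ := hz ⟨y.1 u₀ - (μ : F) • u₀, by simp [h1]⟩
  have h3 : y.1 h - (μ : F) • (h : V) = y.1 u₀ - (μ : F) • u₀ := by
    rw [hy]; simpa using congrArg Subtype.val hh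
  have h4 : ψ (u₀ - h) = 1 := by simp [hu₀, show ψ h = 0 from h.2]
  obtain ⟨e, he⟩ := exists_coprod (LinearMap.ker ψ).subtype (LinearMap.toSpanSingleton F V (u₀ - h))
    (fun v => ⟨⟨v - ψ v • (u₀ - h), by
      rw [LinearMap.mem_ker, map_sub, map_smul, h4]; simp⟩, ψ v, by simp⟩)
    (by simpa using Module.Dual.finrank_ker_add_one_of_ne_zero hψ)
  refine ⟨e, fun p => ?_⟩
  have h5 : y.1 (u₀ - h) = (μ : F) • (u₀ - h) := by
    rw [map_sub, smul_sub, sub_eq_sub_iff_sub_eq_sub, h3]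
  simp [he, bs_val, hy, h5, smul_smul, mul_comm]

theorem isConj_hyp {y y₀ : (End F V)ˣ} {ψ : Dual F V} (hψ : ψ ≠ 0)
    {z : (End F (LinearMap.ker ψ))ˣ} (hz : Cy z) (hy : ∀ x : LinearMap.ker ψ, y.1 x = z.1 x) {μ : F}
    (hμ : z.1.charpoly.eval μ ≠ 0) (h0 : Cy y₀) (h1 : y₀.1.charpoly = z.1.charpoly * (X - C μ))
    (hd : dt y = dt y₀) : IsConj y₀ y := by
  have h2 := coeff_ne y₀
  rw [h1, mul_coeff_zero] at h2
  obtain ⟨μ, rfl⟩ : ∃ a : Fˣ, (a : F) = μ := ⟨Units.mk0 μ (by rintro rfl; simp at h2), rfl⟩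
  obtain ⟨h3, h4⟩ := cy_sc (finrank_self F) μ
  have h5 := sim_hyp hψ hy hμ (Units.ext (by
    rw [hd, Units.val_mul, dt_eq_coeff, dt_eq_coeff, h1,
      ← Module.Dual.finrank_ker_add_one_of_ne_zero hψ]
    simp [pow_succ, mul_assoc]))
  refine h0.isConj ((hz.bs h3 ?_).sim h5) (by rw [← h5.charpoly, charpoly_bs, h4, h1])
  rw [h4]
  exact ((irreducible_X_sub_C _).coprime_iff_not_dvd.2 (mt dvd_iff_isRoot.1 hμ)).symm

theorem Cy.exists_poly' {x : (End F V)ˣ} (h : Cy x) (h' : Sm x) {n : ℕ} (hn : finrank F V = n + 1) :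
    ∃ p μ, p.Monic ∧ x.1.charpoly = p * (X - C μ) ∧ p.eval μ ≠ 0 ∧ p.natDegree = n ∧
      p.coeff 0 ≠ 0 := by
  obtain ⟨p, μ, h1, h2, h3⟩ := h.exists_poly h'
  have h4 := x.1.charpoly_natDegree
  have h5 := coeff_ne x
  rw [h2] at h4 h5
  rw [h1.natDegree_mul (monic_X_sub_C _), natDegree_X_sub_C] at h4
  exact ⟨p, μ, h1, h2, h3, by omega, fun h => h5 (by simp [h])⟩

theorem T1 {g y₀ b₀ : (End F V)ˣ} (hg : NS g) (h1 : Cy y₀) (h2 : Sm y₀) (h3 : Cy b₀)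
    (hd : dt b₀ = dt g * dt y₀) : ∃ y, IsConj y₀ y ∧ IsConj b₀ (g * y) := by
  have := hg.nontrivial
  obtain ⟨n, hn⟩ := Nat.exists_eq_add_one.2 (finrank_pos (R := F) (M := V))
  obtain ⟨p, μ, a1, a2, a3, a4, a5⟩ := h1.exists_poly' h2 hn
  obtain ⟨y, ψ, z, e, f, b1, b2, b3, b4, b5, b6, -⟩ := exists_factor (toLinearEquiv g)
    hg.choose_spec hn a1 a4 a5 b₀.1.charpoly_monic (b₀.1.charpoly_natDegree.trans hn)
  obtain ⟨z, rfl⟩ := exists_unit' (b4 ▸ a5)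
  obtain ⟨b, hb⟩ := exists_unit' (b6 ▸ coeff_ne b₀)
  have h4 : IsConj b₀ b := h3.isConj ⟨f, hb ▸ b5⟩ (by rw [hb, b6])
  have h5 : (g⁻¹ * b).1 = y := by
    rw [Units.val_mul, hb]; exact LinearMap.ext fun v => inv_app g _
  exact ⟨g⁻¹ * b, isConj_hyp b1 ⟨e, b3⟩ (h5 ▸ b2) (b4 ▸ a3) h1 (b4 ▸ a2)
    (by simp [← dt_isConj h4, hd]), by simpa using h4⟩

theorem Gen.basis {a : End F V} {v : V} (h : Gen a v) {n : ℕ} (hn : finrank F V = n + 1) :
    ∃ B : Basis (Fin (n + 1)) F V, ∀ i, B i = (a ^ (i : ℕ)) v := by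
  refine ⟨basisOfTopLeSpanOfCardEqFinrank (fun i : Fin (n + 1) => (a ^ (i : ℕ)) v) (fun w _ => ?_)
    (by simp [hn]), fun i => by simp⟩
  obtain ⟨f, rfl⟩ := h.surj w
  have h1 := a.charpoly_natDegree.trans hn
  rw [← ev_modByMonic (ev_charpoly a v), ev_eq_sum a v (h1 ▸ natDegree_modByMonic_lt f
    a.charpoly_monic fun e => by simp [e] at h1)]
  exact sum_mem fun i hi => smul_mem _ _ (subset_span ⟨⟨i, Finset.mem_range.1 hi⟩, rfl⟩)

theorem T1p {g y₀ b₀ : (End F V)ˣ} (hg : Cy g) (h0 : 3 ≤ finrank F V) (h1 : Cy y₀) (h2 : Sm y₀)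
    (h3 : Cy b₀) (hd : dt b₀ = dt g * dt y₀) (s : Fˣ) :
    ∃ y c, IsConj y₀ y ∧ dt c = s ∧ g * y = c * b₀ * c⁻¹ := by
  obtain ⟨m, hn⟩ : ∃ m, finrank F V = m + 2 + 1 := ⟨finrank F V - 3, by omega⟩
  obtain ⟨p, μ, a1, a2, a3, a4, a5⟩ := h1.exists_poly' h2 hn
  obtain ⟨w, hw⟩ := hg.inv
  obtain ⟨B, hB⟩ := Gen.basis (a := (g⁻¹).1 - 1) (v := w)
    (fun Y hY hi => hw Y hY fun x hx => by simpa using add_mem (hi x hx) hx) hn
  obtain ⟨A, hA⟩ := h3.choose_spec.basis hn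
  set c' := ofLinearEquiv (A.equiv B Fin.revPerm)
  have hc' : ∀ i, c'.1 (A i.rev) = B i := fun i => by simp [c']
  set t : F := s / (dt g * ((-1) ^ (m + 2) * p.coeff 0) * dt c') with ht
  have t0 : t ≠ 0 := by simp [ht, a5]
  set D := dl (B.coord 0) ((t - 1) • B 0) (by simpa)
  obtain ⟨τ, τ0, τ1⟩ : ∃ τ : Fin (m + 2 + 1) → F, τ 0 = t ∧ ∀ i : Fin (m + 2), τ i.succ = 1 :=
    ⟨Fin.cases t fun _ => 1, rfl, fun _ => rfl⟩
  have hD : ∀ i, D.1 (B i) = τ i • B i := fun i =>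
    i.cases (by simp [D, dl_apply, τ0, sub_smul]) fun i => by simp [D, dl_apply, τ1]
  have hD' : ∀ i, τ i ≠ 0 := fun i => i.cases (τ0 ▸ t0) fun i => by simp [τ1]
  set ζ := (g⁻¹).1 * D.1 * B.constr F (Fin.cases 0 fun i => B i.castSucc)
  have z0 : ζ (B 0) = 0 := by simp [ζ]
  have z1 : ∀ i : Fin (m + 2), ζ (B i.succ) = (g⁻¹).1 (D.1 (B i.castSucc)) := fun i => by simp [ζ]
  have z2 : ∀ i : Fin (m + 2), ζ (B i.succ) = τ i.castSucc • (B i.castSucc + B i.succ) := fun i => by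
    rw [z1, hD, map_smul, hB, hB]
    simp [pow_succ']
  set ε := B.coord (Fin.last _) with hε
  have e0 : ε (B 0) = 0 := by simp [hε, Fin.ext_iff]
  have e1 : ε ∘ₗ ζ = ε := B.ext fun i => by
    refine i.cases (by simp [z0, e0]) fun i => ?_
    by_cases h : i.succ = Fin.last _
    · obtain rfl : i = Fin.last _ := by simpa using h
      simp [z2, hε, show τ (Fin.last _).castSucc = 1 from τ1 (Fin.last _).castSucc, -Fin.succ_last]
    · simp [z2, hε, h]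
  have e2 : ∀ x, ε (ζ x) = ε x := LinearMap.congr_fun e1
  have e3 : ε ≠ 0 := fun h => by simpa [hε] using LinearMap.congr_fun h (B (Fin.last _))
  have e4 : ∀ j : Fin (m + 2), B.coord j.castSucc ∘ₗ ζ = B.coord j.castSucc (ζ (B j.castSucc)) •
      B.coord j.castSucc + τ j.castSucc • B.coord j.succ := fun j =>
    B.ext fun i => by
      by_cases h : i = j.castSucc
      · subst h; simp [Fin.ext_iff]
      revert h
      refine i.cases (fun h => by simp [z0, h]) fun i h => ?_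
      by_cases h' : i = j
      · subst h'; simp [z2, h]
      · simp [z2, h, h']
  obtain ⟨z, b1, b2, b3⟩ := complete_sub (H := LinearMap.ker ε) (χ := B.coord 0) (ζ := ζ) e0
    (by simp) (fun x hx => (e2 x).trans hx.1) (fun Y hY hi => eq_bot_iff.2 fun v hv => by
      have : ∀ j, ∀ v ∈ Y, B.coord j v = 0 := fun j => j.induction (fun v hv => (hY hv).2)
        fun j ih v hv => by
          have := LinearMap.congr_fun (e4 j) v
          rw [LinearMap.comp_apply, ih _ (hi v hv)] at this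
          simpa [ih v hv, hD'] using this
      exact (B.forall_coord_eq_zero_iff).1 fun j => this j v hv) a1
    (a4.trans (finrank_ker_dual e3 hn).symm) a5
  have y1 : ∀ x : LinearMap.ker ε, (ζ + (B.coord 0).smulRight (z.1 ⟨B 0, e0⟩ : V)) x = z.1 x :=
    fun x => by
      simpa [z0, eq_sub_iff_add_eq] using (b3 (x - B.coord 0 x • ⟨B 0, e0⟩) (by simp)).symm
  obtain ⟨ν, y2, y3⟩ := exists_quot_scalar e3 y1
  obtain rfl : ν = 1 := by
    have := y2 (B (Fin.last _))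
    rw [LinearMap.add_apply, map_add, e2] at this
    simpa [hε, Finsupp.single_apply, Fin.ext_iff] using this.symm
  obtain ⟨Y, hY⟩ := exists_unit (y3 ▸ mul_ne_zero (dt z).ne_zero one_ne_zero)
  set c := g * Y * D * c'
  have k1 : ∀ j : Fin (m + 2), (c * b₀ * c⁻¹).1 (B j.castSucc) = (g * Y).1 (B j.castSucc) := by
    intro j
    have k2 : D.1 (B j.castSucc) = c.1 (A j.succ.rev) := by
      simp [c, hc', hD j.succ, hY, z1, τ1]
    have k3 : b₀.1 (A j.succ.rev) = A j.castSucc.rev := by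
      rw [Fin.rev_succ, Fin.rev_castSucc, hA, hA]; simp [pow_succ']
    refine smul_right_injective V (hD' j.castSucc) ?_
    simp only [← map_smul, ← hD]
    conv_lhs => rw [k2, Units.val_mul, Units.val_mul, End.mul_apply, inv_app, End.mul_apply, k3]
    simp [c, hc']
  have k4 : (c * b₀ * c⁻¹).1 = (g * Y).1 +
      ε.smulRight ((c * b₀ * c⁻¹).1 (B (Fin.last _)) - (g * Y).1 (B (Fin.last _))) :=
    B.ext fun i => i.lastCases (by simp [hε]) fun j => by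
      rw [k1]; simp [hε]
  refine ⟨g⁻¹ * (c * b₀ * c⁻¹), c, isConj_hyp e3 b1 (fun x => ?_) (b2 ▸ a3) h1 (b2 ▸ a2)
    (by simp [hd]), Units.ext ?_, by simp⟩
  · rw [Units.val_mul, k4, ← y1, ← hY]
    simp [show ε x = 0 from x.2]
  · simp only [c, map_mul, Units.val_mul, dt_val Y, hY, y3, ← dt_val z, dt_eq_coeff z, D, dt_dl,
      b2, finrank_ker_dual e3 hn]
    simp [ht]
    field_simp

theorem Cy.sim_of_charpoly {x : (End F V)ˣ} {z : (End F W)ˣ} (h : Cy x) (h' : Cy z)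
    (e : x.1.charpoly = z.1.charpoly) : Sim x.1 z.1 := by
  have h1 := sim_cg (LinearEquiv.ofFinrankEq V W
    (by rw [← x.1.charpoly_natDegree, e, z.1.charpoly_natDegree])) x
  exact h1.trans (sim_of_isConj ((h.sim h1).isConj h' (h1.charpoly ▸ e)))

/-- all `g - c` have rank at least two, in explicit form -/
def Wit (g : (End F V)ˣ) : Prop :=
  (∃ ψ : Dual F V, ∀ a b c, ∃ v, ψ v = a ∧ ψ (g.1 v) = b ∧ ψ (g.1 (g.1 v)) = c) ∨
  ∃ (ψ χ : Dual F V) (τ δ : F), (∀ v, ψ (g.1 (g.1 v)) = τ * ψ (g.1 v) - δ * ψ v) ∧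
    (∀ v, χ (g.1 (g.1 v)) = τ * χ (g.1 v) - δ * χ v) ∧
    ∀ a b c d, ∃ v, ψ v = a ∧ ψ (g.1 v) = b ∧ χ v = c ∧ χ (g.1 v) = d

theorem finrank_ker_two {φ χ : Dual F V} {r t : V} (h1 : φ r = 1) (h2 : φ t = 0) (h4 : χ t = 1) :
    finrank F ↥(LinearMap.ker φ ⊓ LinearMap.ker χ) + 2 = finrank F V := by
  have := finrank_inf_ker (W := LinearMap.ker φ) (φ := χ) h2 (by simp [h4])
  have := Module.Dual.finrank_ker_add_one_of_ne_zero (f := φ) (by rintro rfl; simp at h1)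
  omega

theorem exists_two {φ χ : Dual F V} {r t : V} (h1 : φ r = 1) (h2 : φ t = 0) (h3 : χ r = 0)
    (h4 : χ t = 1) (z : (End F ↥(LinearMap.ker φ ⊓ LinearMap.ker χ))ˣ) (μ : Fˣ) :
    ∃ y : (End F V)ˣ, Sim (bs z (sc (F × F) μ)).1 y.1 ∧
      (∀ x : ↥(LinearMap.ker φ ⊓ LinearMap.ker χ), y.1 x = z.1 x) ∧ y.1 r = (μ : F) • r ∧
      (∀ v, φ (y.1 v) = μ * φ v) ∧ ∀ v, χ (y.1 v) = μ * χ v := by
  obtain ⟨e, he⟩ := exists_coprod (LinearMap.ker φ ⊓ LinearMap.ker χ).subtype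
    ((LinearMap.toSpanSingleton F V r).coprod (LinearMap.toSpanSingleton F V t))
    (fun v => ⟨⟨v - φ v • r - χ v • t, by simp [*]⟩, (φ v, χ v), by simp⟩)
    (by simpa using finrank_ker_two h1 h2 h4)
  have k : ∀ p, (cg e (bs z (sc (F × F) μ))).1 (e p) = e (z.1 p.1, (μ : F) • p.2) := fun p => by
    simp [bs_val]
  refine ⟨_, sim_cg e _, fun x => by simpa [he] using k (x, 0), by simpa [he] using k (0, 1, 0),
    fun v => ?_, fun v => ?_⟩ <;> obtain ⟨p, rfl⟩ := e.surjective v <;> rw [k] <;>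
    simp [he, h1, h2, h3, h4, LinearMap.mem_ker.1 (z.1 p.1).2.1, LinearMap.mem_ker.1 p.1.2.1,
      LinearMap.mem_ker.1 (z.1 p.1).2.2, LinearMap.mem_ker.1 p.1.2.2]

theorem mem_of_inv {b : (End F V)ˣ} {Y Z : Submodule F V} (hi : ∀ x ∈ Y, b.1 x ∈ Y)
    (h : ∀ x ∈ Y, b.1 x ∈ Z) : Y ≤ Z := fun x hx => by
  obtain ⟨u, hu, rfl⟩ := map_eq_of_inj hi (fun x _ h => unit_inj b (by simpa using h)) hx
  exact h u hu

theorem T2 {g : (End F V)ˣ} (hg : Wit g) {A : (End F W)ˣ} (hA : Cy A)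
    (hn : finrank F V = finrank F W + 2) (μ : Fˣ) :
    ∃ y : (End F V)ˣ, Sim (bs A (sc (F × F) μ)).1 y.1 ∧ Cy (g * y) := by
  have hd := A.1.charpoly_natDegree
  obtain ⟨ψ, h⟩ | ⟨ψ, χ, τ, δ, q1, q2, h⟩ := hg
  · obtain ⟨w, w1, w2, w3⟩ := h 1 0 0
    obtain ⟨r, -, r2, r3⟩ := h 0 1 0
    obtain ⟨t, -, t2, t3⟩ := h 0 0 1
    have hH := finrank_ker_two (φ := ψ ∘ₗ g.1) (χ := ψ ∘ₗ g.1 ∘ₗ g.1) r2 t2 t3
    set H := LinearMap.ker (ψ ∘ₗ g.1) ⊓ LinearMap.ker (ψ ∘ₗ g.1 ∘ₗ g.1)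
    obtain ⟨ζ, z1, z2, z3⟩ := exists_chain_pair (toLinearEquiv g) (H := H)
      (W := H ⊓ LinearMap.ker ψ) inf_le_left (finrank_inf_ker (w := w) ⟨w2, w3⟩ (by simp [w1]))
      fun x hx => ⟨(congrArg ψ (app_inv g x)).trans hx.2,
        (congrArg (ψ ∘ₗ g.1) (app_inv g x)).trans hx.1.1⟩
    obtain ⟨z, a1, a2, a3⟩ := complete_sub (H := H) (w := w) ⟨w2, w3⟩ (by simp [w1]) z1 z2
      A.1.charpoly_monic (by omega) (coeff_ne A)
    obtain ⟨y, y1, y2, -, y4, y5⟩ := exists_two (φ := ψ ∘ₗ g.1) (χ := ψ ∘ₗ g.1 ∘ₗ g.1) r2 t2 r3 t3 z μ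
    refine ⟨y, (sim_bs (hA.sim_of_charpoly a1 a2.symm) (Sim.refl _)).trans y1,
      Chain.cy (φ := ψ ∘ₗ g.1) (fun Y hY hi => ?_) hn⟩
    have h1 : Y ≤ H ⊓ LinearMap.ker ψ := le_inf (le_inf hY fun v hv => by
      simpa using (y5 v).symm.trans (hY (hi v hv))) (mem_of_inv hi fun v hv =>
        (y4 v).trans (by simp [show ψ (g.1 v) = 0 from hY hv]))
    refine z3 Y h1 fun v hv => ?_
    have := hi v hv
    rwa [Units.val_mul, End.mul_apply, y2 ⟨v, (h1 hv).1⟩, a3 ⟨v, _⟩ (h1 hv).2] at this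
  obtain ⟨u, u1, u2, u3, u4⟩ := h 1 0 0 0
  obtain ⟨w, w1, w2, w3, w4⟩ := h 0 0 0 1
  have δ0 : δ ≠ 0 := by
    rintro rfl
    obtain ⟨v, v1, v2, -⟩ := h 0 1 0 0
    simpa [v1, v2] using q1 ((g⁻¹).1 v)
  have hH := finrank_ker_two u1 w2 w4
  set H := LinearMap.ker ψ ⊓ LinearMap.ker χ
  set M := H ⊓ LinearMap.ker (ψ ∘ₗ g.1)
  set L := M ⊓ LinearMap.ker (χ ∘ₗ g.1)
  have hL : finrank F L + 1 = _ :=
    finrank_inf_ker (W := M) (φ := χ ∘ₗ g.1) (w := w) ⟨⟨w1, w3⟩, w2⟩ (by simp [w4])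
  obtain ⟨ζ₁, z1, z2, z3⟩ := exists_chain_pair (toLinearEquiv g) (H := M) (W := L) inf_le_left hL
    fun x hx => by
      have a1 : ψ x = 0 := hx.1.1.1
      have a2 : χ x = 0 := hx.1.1.2
      have a3 : ψ (g.1 x) = 0 := hx.1.2
      have a4 : χ (g.1 x) = 0 := hx.2
      exact ⟨⟨show ψ ((g⁻¹).1 x) = 0 by simpa [a1, a3, δ0] using q1 ((g⁻¹).1 x),
        show χ ((g⁻¹).1 x) = 0 by simpa [a2, a4, δ0] using q2 ((g⁻¹).1 x)⟩,
        (congrArg ψ (app_inv g x)).trans a1⟩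
  obtain ⟨m, m1, m2⟩ := exists_notMem_of_lt (D := L.map ζ₁) (W := M)
    (by have := finrank_map_le ζ₁ L; omega)
  obtain ⟨ζ, e1, e2⟩ := exists_ext ζ₁ (D := L) (w := g.1 u)
    (fun h => δ0 (by simpa [q1, u1, u2] using h.1.2)) m
  have d1 : ∀ x ∈ H ⊓ LinearMap.ker (χ ∘ₗ g.1), ∃ c : F, ∃ l ∈ L, x = l + c • g.1 u ∧
      ζ x = ζ₁ l + c • m := fun x hx => by
    have : x + (ψ (g.1 x) / δ) • g.1 u ∈ L := ⟨⟨add_mem hx.1 (smul_mem _ _ ⟨u2, u4⟩),
      by simp [q1, u1, u2, δ0]⟩, add_mem hx.2 (smul_mem _ _ (by simp [q2, u3, u4]))⟩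
    exact ⟨-(ψ (g.1 x) / δ), _, this, by simp, by simp [← e2 _ this, e1]⟩
  have d2 : ∀ x ∈ H ⊓ LinearMap.ker (χ ∘ₗ g.1), ζ x ∈ M := fun x hx => by
    obtain ⟨c, l, hl, -, e⟩ := d1 x hx
    exact e ▸ add_mem (z1 l hl) (smul_mem _ _ m1)
  obtain ⟨z, a1, a2, a3⟩ := complete_sub (H := H) (χ := χ ∘ₗ g.1) (w := w) (ζ := ζ) ⟨w1, w3⟩
    (by simp [w4]) (fun x hx => (d2 x hx).1) (fun Y hY hi => by
      have : Y ≤ L := fun x hx => by
        obtain ⟨v, hv, rfl⟩ := map_eq_of_inj hi (fun x hx h => by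
          obtain ⟨c, l, hl, rfl, e⟩ := d1 x (hY hx)
          obtain rfl : c = 0 := by_contra fun hc => m2 ((smul_mem_iff _ hc).1
            (eq_neg_of_add_eq_zero_right (e.symm.trans h) ▸ neg_mem ⟨l, hl, rfl⟩))
          simpa using z2.inj hl (by simpa using e.symm.trans h)) hx
        exact ⟨d2 v (hY hv), (hY hx).2⟩
      exact z2 Y this fun x hx => e2 x (this hx) ▸ hi x hx)
    A.1.charpoly_monic (by omega) (coeff_ne A)
  obtain ⟨y, y1, y2, y3, y4, y5⟩ := exists_two u1 w2 u3 w4 z μ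
  refine ⟨y, (sim_bs (hA.sim_of_charpoly a1 a2.symm) (Sim.refl _)).trans y1,
    Chain.cy (φ := χ ∘ₗ g.1 - τ • χ) (fun Y hY hi => ?_) hn⟩
  have b1 : ∀ v ∈ Y, χ v = 0 := fun v hv => by simpa [q2, y5, δ0] using hY (hi v hv)
  have b2 : ∀ v ∈ Y, χ (g.1 v) = 0 := fun v hv => by simpa [b1 v hv] using hY hv
  have b3 : ∀ v ∈ Y, ψ (g.1 (y.1 v)) = 0 := fun v hv => by
    have c1 : v - ψ v • u ∈ H := ⟨by simp [u1], by simp [u3, b1 v hv]⟩
    have c2 : χ (g.1 (v - ψ v • u)) = 0 := by simp [u4, b2 v hv]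
    have c3 := (d2 _ ⟨c1, c2⟩).2
    rw [← show _ = ζ (v - ψ v • u) from a3 ⟨_, c1⟩ c2, ← y2] at c3
    simpa [y3, u2] using c3
  have b4 : Y ≤ LinearMap.ker ψ := mem_of_inv hi b3
  have b5 : Y ≤ L := le_inf (le_inf (le_inf b4 b1) (mem_of_inv hi fun v hv => by
    simp [q1, b3 v hv, y4, LinearMap.mem_ker.1 (b4 hv)])) b2
  refine z3 Y b5 fun v hv => ?_
  have := hi v hv
  rwa [Units.val_mul, End.mul_apply, y2 ⟨v, (b5 hv).1.1⟩, a3 ⟨v, _⟩ (b5 hv).2, e2 _ (b5 hv)] at this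

/-- `x` satisfies a quadratic equation -/
def Qd (x : (End F V)ˣ) (τ δ : F) : Prop := ∀ v, x.1 (x.1 v) = τ • x.1 v - δ • v

theorem exists_res (x : (End F V)ˣ) {Y : Submodule F V} (hi : ∀ v ∈ Y, x.1 v ∈ Y) :
    ∃ y : (End F Y)ˣ, ∀ v, (y.1 v : V) = x.1 v := by
  obtain ⟨y, hy⟩ := ((x.1.restrict hi).isUnit_iff_ker_eq_bot).2 (LinearMap.ker_eq_bot.2
    fun a b h => Subtype.ext (unit_inj x (congrArg Subtype.val h)))
  exact ⟨y, fun v => by rw [hy]; rfl⟩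

theorem exists_split {x : (End F V)ˣ} (hx : NS x) :
    ∃ (Y Z : Submodule F V) (y : (End F Y)ˣ) (z : (End F Z)ˣ), Sim (bs y z).1 x.1 ∧ Cy y ∧
      2 ≤ finrank F Y ∧ (finrank F Y = 2 → ∃ τ δ, Qd x τ δ) := by
  obtain ⟨v, hv⟩ := Module.exists_ker_toSpanSingleton_eq_annihilator (R := F[X])
    (M := Module.AEval' x.1)
  obtain ⟨v, rfl⟩ := (Module.AEval'.of x.1).surjective v
  have h1 : ∀ f, ev x.1 v f = 0 → ∀ u, ev x.1 u f = 0 := fun f h u => by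
    have h2 : f ∈ annihilator F[X] (Module.AEval' x.1) := hv ▸ (by
      rw [LinearMap.mem_ker, LinearMap.toSpanSingleton_apply, ← Module.AEval.of_aeval_smul]
      exact (map_eq_zero_iff _ (LinearEquiv.injective _)).2 h)
    have h3 := mem_annihilator.1 h2 (Module.AEval'.of x.1 u)
    rw [← Module.AEval.of_aeval_smul] at h3
    exact (map_eq_zero_iff _ (LinearEquiv.injective _)).1 h3
  set Y := LinearMap.range (ev x.1 v)
  obtain ⟨y, hy⟩ := exists_res x (Y := Y) (by rintro _ ⟨f, rfl⟩; exact ⟨_, ev_X_mul _ _ f⟩)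
  have h2 : ∀ f, (ev y.1 ⟨v, 1, ev_one _ _⟩ f : V) = ev x.1 v f := ev_intertwine Y.subtype hy _
  have h3 : Gen y.1 ⟨v, 1, ev_one _ _⟩ := gen_of_surj fun ⟨_, f, e⟩ => ⟨f, Subtype.ext ((h2 f).trans e)⟩
  have h4 := h1 y.1.charpoly (by rw [← h2, ev_charpoly]; rfl)
  have h5 := y.1.charpoly_natDegree
  have h6 : ∀ u, ∑ i ∈ Finset.range (finrank F Y), y.1.charpoly.coeff i • (x.1 ^ i) u +
      (x.1 ^ finrank F Y) u = 0 := fun u => by
    rw [← h4 u, ev_eq_sum _ _ (h5.trans_lt (Nat.lt_succ_self _)), Finset.sum_range_succ, ← h5,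
      y.1.charpoly_monic.coeff_natDegree, one_smul]
  obtain ⟨n, hn⟩ : ∃ n, finrank F Y = n + 1 + 1 := by
    obtain ⟨u, hu⟩ := hx
    obtain h | h | h : finrank F Y = 0 ∨ finrank F Y = 1 ∨ 2 ≤ finrank F Y := by omega
    · exact (hu (by simp [show u = 0 by simpa [h] using h6 u])).elim
    · refine (hu (mem_span_singleton.2 ⟨-y.1.charpoly.coeff 0, ?_⟩)).elim
      simpa [h, neg_eq_iff_add_eq_zero] using h6 u
    · exact ⟨finrank F Y - 2, by omega⟩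
  obtain ⟨B, hB⟩ := h3.basis hn
  obtain ⟨φ, hφ⟩ := LinearMap.exists_extend (B.coord (Fin.last _))
  have h7 : ∀ f : F[X], f.natDegree < n + 2 → φ (ev x.1 v f) = f.coeff (n + 1) := fun f hf => by
    rw [← h2, ev_eq_sum _ _ hf, Finset.sum_range, ← Y.subtype_apply, ← LinearMap.comp_apply, hφ]
    simp [← hB, Finsupp.single_apply]
  let Φ : V →ₗ[F] (Fin (n + 2) → F) := LinearMap.pi fun i => φ ∘ₗ (x.1 ^ (i : ℕ))
  have h8 : ∀ f : F[X], (f %ₘ y.1.charpoly).natDegree < n + 2 := fun f => hn ▸ h5 ▸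
    natDegree_modByMonic_lt f y.1.charpoly_monic fun e => by simp [e, hn] at h5
  have h9 : ∀ u ∈ LinearMap.ker Φ, ∀ f, φ (ev x.1 u f) = 0 := fun u hu f => by
    rw [← ev_modByMonic (h4 u), ev_eq_sum _ _ (h8 f), map_sum]
    exact Finset.sum_eq_zero fun i hi => by
      simp [show φ ((x.1 ^ i) u) = 0 from congrFun hu ⟨i, Finset.mem_range.1 hi⟩]
  obtain ⟨z, hz⟩ := exists_res x (Y := LinearMap.ker Φ) fun u hu => funext fun i =>
    show φ ((x.1 ^ (i : ℕ)) (x.1 u)) = 0 by simpa [ev_apply, pow_succ] using h9 u hu (X ^ (i + 1 : ℕ))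
  have k1 : Function.Injective (Φ ∘ₗ Y.subtype) := by
    rw [← LinearMap.ker_eq_bot, LinearMap.ker_eq_bot']
    rintro ⟨_, f, rfl⟩ h
    have k2 := h9 (ev x.1 v f) h (X ^ (n + 1 - (f %ₘ y.1.charpoly).natDegree))
    have k3 := h8 f
    rw [ev_apply, ← ev_modByMonic (h4 v), ← ev_mul, h7 _ (natDegree_mul_le.trans_lt
      (by rw [natDegree_X_pow]; omega)), coeff_X_pow_mul', if_pos (by omega), 
      Nat.sub_sub_self (by omega), coeff_natDegree, leadingCoeff_eq_zero] at k2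
    exact Subtype.ext (by simp [← ev_modByMonic (h4 v) f, k2])
  have k2 := (LinearMap.injective_iff_surjective_of_finrank_eq_finrank (by simp [hn])).1 k1
  obtain ⟨e, he⟩ := exists_coprod Y.subtype (LinearMap.ker Φ).subtype (fun u => by
    obtain ⟨a, ha⟩ := k2 (Φ u)
    exact ⟨a, ⟨u - a, by simp [← ha]⟩, by simp⟩) (by
    rw [← Φ.finrank_range_add_finrank_ker, Φ.range_eq_top.2 (.of_comp (g := Y.subtype) k2)]; simp [hn])
  refine ⟨Y, _, y, z, ⟨e, fun p => by simp [he, bs_val, hy, hz]⟩, ⟨_, h3⟩, by omega, fun h =>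
    ⟨-y.1.charpoly.coeff 1, y.1.charpoly.coeff 0, fun u => ?_⟩⟩
  have := h6 u
  simp only [h, Finset.sum_range_succ, Finset.range_zero, Finset.sum_empty, sq, pow_one, pow_zero,
    End.mul_apply, End.one_apply] at this
  linear_combination (norm := module) this

omit [FiniteDimensional F V] [FiniteDimensional F W] [FiniteDimensional F U]
variable {x : (End F V)ˣ} {z : (End F W)ˣ} {τ δ : F}

theorem Wit.of_surj (h : Wit x) (e : W →ₗ[F] V) (he : ∀ w, e (z.1 w) = x.1 (e w))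
    (hs : Function.Surjective e) : Wit z := by
  obtain ⟨ψ, h⟩ | ⟨ψ, χ, τ, δ, q1, q2, h⟩ := h
  · refine .inl ⟨ψ ∘ₗ e, fun a b c => ?_⟩
    obtain ⟨v, h⟩ := h a b c
    obtain ⟨w, rfl⟩ := hs v
    exact ⟨w, by simpa [he] using h⟩
  · refine .inr ⟨ψ ∘ₗ e, χ ∘ₗ e, τ, δ, by simp [he, q1], by simp [he, q2], fun a b c d => ?_⟩
    obtain ⟨v, h⟩ := h a b c d
    obtain ⟨w, rfl⟩ := hs v
    exact ⟨w, by simpa [he] using h⟩

theorem Wit.sim (h : Wit x) (h' : Sim z.1 x.1) : Wit z :=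
  h.of_surj h'.choose h'.choose_spec h'.choose.surjective

theorem Wit.bs (h : Wit x) (z : (End F W)ˣ) : Wit (bs x z) :=
  h.of_surj (.fst F V W) (fun _ => rfl) Prod.fst_surjective

theorem Wit.ns (h : Wit x) : NS x := by
  have k : ∀ (ψ : Dual F V) v, ψ v = 0 → ψ (x.1 v) = 1 → NS x := fun ψ v h1 h2 => ⟨v, fun h => by
    obtain ⟨c, hc⟩ := mem_span_singleton.1 h
    simp [← hc, h1] at h2⟩
  obtain ⟨ψ, h⟩ | ⟨ψ, χ, τ, δ, -, -, h⟩ := h
  · exact k ψ _ (h 0 1 0).choose_spec.1 (h 0 1 0).choose_spec.2.1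
  · exact k ψ _ (h 0 1 0 0).choose_spec.1 (h 0 1 0 0).choose_spec.2.1

theorem Gen.span_pair {a : End F V} {v : V} (h : Gen a v) (h2 : a (a v) ∈ span F {v, a v}) :
    span F {v, a v} = ⊤ := h _ (subset_span (by simp)) fun w hw => by
  obtain ⟨b, c, rfl⟩ := mem_span_pair.1 hw
  rw [map_add, map_smul, map_smul]
  exact add_mem (smul_mem _ _ (subset_span (by simp))) (smul_mem _ _ h2)

theorem Gen.finrank_le {a : End F V} {v : V} (h : Gen a v) (h2 : a (a v) ∈ span F {v, a v}) :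
    finrank F V ≤ 2 := by
  rw [← finrank_top, ← h.span_pair h2, ← Matrix.range_cons_cons_empty]
  exact finrank_range_le_card (R := F) ![v, a v]

theorem Cy.wit (h : Cy x) (hn : 3 ≤ finrank F V) : Wit x := by
  obtain ⟨v, h⟩ := h
  obtain ⟨ψ, h1, h2⟩ := exists_dual_one fun h2 => (h.finrank_le h2).not_gt hn
  have h3 := h2 v (subset_span (by simp))
  have h4 := h2 (x.1 v) (subset_span (by simp))
  refine .inl ⟨ψ, fun a b c => ⟨a • x.1 (x.1 v) + (b - a * ψ (x.1 (x.1 (x.1 v)))) • x.1 v +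
    (c - a * ψ (x.1 (x.1 (x.1 (x.1 v)))) - (b - a * ψ (x.1 (x.1 (x.1 v)))) *
      ψ (x.1 (x.1 (x.1 v)))) • v, ?_⟩⟩
  simp [h1, h3, h4]

theorem Qd.of_inj (h : Qd x τ δ) (e : W →ₗ[F] V) (he : ∀ w, e (z.1 w) = x.1 (e w))
    (hs : Function.Injective e) : Qd z τ δ := fun w => hs (by simp [he, h _])

theorem Qd.left (h : Qd x τ δ) {y : (End F U)ˣ} (h' : Sim (bs y z).1 x.1) : Qd y τ δ :=
  (h.of_inj h'.choose h'.choose_spec h'.choose.injective).of_inj (.inl F U W)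
    (by simp [bs_val]) LinearMap.inl_injective

theorem Qd.right (h : Qd x τ δ) {y : (End F U)ˣ} (h' : Sim (bs y z).1 x.1) : Qd z τ δ :=
  h.left ((sim_bs_comm _ _).trans h')

theorem Qd.finrank_le (h : Qd x τ δ) (h' : Cy x) : finrank F V ≤ 2 :=
  h'.choose_spec.finrank_le (mem_span_pair.2 ⟨-δ, τ, by rw [h]; module⟩)

theorem Qd.pair (h : Qd x τ δ) (h' : NS x) :
    ∃ ψ : Dual F V, ∀ a b, ∃ v, ψ v = a ∧ ψ (x.1 v) = b := by
  obtain ⟨v, h'⟩ := h'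
  obtain ⟨ψ, h1, h2⟩ := exists_dual_one h'
  exact ⟨ψ, fun a b => ⟨a • x.1 v + (b - a * τ) • v, by
    simp [h v, h1, h2 v (mem_span_singleton_self v)]⟩⟩

theorem Qd.wit (h : Qd x τ δ) (h' : Qd z τ δ) (hx : NS x) (hz : NS z) : Wit (bs x z) := by
  obtain ⟨ψ, h1⟩ := h.pair hx
  obtain ⟨χ, h2⟩ := h'.pair hz
  refine .inr ⟨ψ ∘ₗ .fst F V W, χ ∘ₗ .snd F V W, τ, δ, fun v => by simp [bs_val, h _],
    fun v => by simp [bs_val, h' _], fun a b c d => ⟨((h1 a b).choose, (h2 c d).choose), ?_⟩⟩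
  exact and_assoc.1 ⟨(h1 a b).choose_spec, (h2 c d).choose_spec⟩

end Cfsg.Agent.Lin
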