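import Mathlib
import Cfsg.Agent.Lin.CovB

/-!
Cyclic operators with a simple eigenvalue and prescribed determinant, products of two conjugates
in dimension two, products of dilatations and transvections, padding.
-/

set_option autoImplicit false

namespace Cfsg.Agent.Lin

open Module Submodule Polynomial KSG LinearMap.GeneralLinearGroup

variable {F V W : Type*} [Field F] [AddCommGroup V] [Module F V] [AddCommGroup W] [Module F W]

theorem exists_rootless [Finite F] {Q : F[X]} (hQ : Q.Monic) (hd : 2 ≤ Q.natDegree) {c : F}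
    (hc : c ≠ 0) : ∃ a p, p = Q + (C a * X + C (c - Q.coeff 0)) ∧ p.Monic ∧
      p.natDegree = Q.natDegree ∧ p.coeff 0 = c ∧ ∀ t, p.eval t ≠ 0 := by
  classical
  let f : F → F := fun t => -(Q.eval t + (c - Q.coeff 0)) / t
  obtain ⟨a, ha⟩ : ∃ a, ∀ t, Function.update f 0 (f 1) t ≠ a := by
    by_contra h
    push Not at h
    simpa using Finite.injective_iff_surjective.2 h (a₁ := 0) (a₂ := 1) (by simp)
  have h1 : (C a * X + C (c - Q.coeff 0)).natDegree < Q.natDegree :=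
    natDegree_linear_le.trans_lt hd
  refine ⟨a, _, rfl, hQ.add_of_left (degree_lt_degree h1), natDegree_add_eq_left_of_natDegree_lt h1,
    by simp, fun t h => ?_⟩
  obtain rfl | h0 := eq_or_ne t 0
  · simp [← coeff_zero_eq_eval_zero, hc] at h
  · refine ha t ?_
    simp only [eval_add, eval_mul, eval_C, eval_X] at h
    rw [Function.update_of_ne h0, div_eq_iff h0]
    linear_combination -h

theorem cop_X {R : F[X]} {t : F} (h : R.eval t ≠ 0) : IsCoprime R (X - C t) :=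
  ((irreducible_X_sub_C _).coprime_iff_not_dvd.2 (mt dvd_iff_isRoot.1 h)).symm

theorem cop_lin {R : F[X]} {a b : F} (h : ∀ t, a * t + b = 0 → R.eval t ≠ 0) (hb : a ≠ 0 ∨ b ≠ 0) :
    IsCoprime R (C a * X + C b) := by
  obtain rfl | ha := eq_or_ne a 0
  · simpa using (isCoprime_mul_unit_left_right (isUnit_C.2 (Ne.isUnit (by simpa using hb))) R 1).2
      isCoprime_one_right
  · rw [show C a * X + C b = C a * (X - C (-b / a)) by
      rw [mul_sub, ← C_mul, mul_div_cancel₀ _ ha]; simp]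
    exact (isCoprime_mul_unit_left_right (isUnit_C.2 ha.isUnit) _ _).2 (cop_X (h _ (by field)))

omit [Field F] in
theorem exists_ne3 [Fintype F] (h4 : 4 ≤ Fintype.card F) (a b c : F) :
    ∃ t, t ≠ a ∧ t ≠ b ∧ t ≠ c := by
  classical
  obtain ⟨t, -, h⟩ := Finset.exists_mem_notMem_of_card_lt_card (s := {a, b, c}) (t := Finset.univ)
    (Finset.card_le_three.trans_lt h4)
  exact ⟨t, by simpa using h⟩

theorem exists_unit_ne [Fintype F] (h4 : 4 ≤ Fintype.card F) (a b : F) :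
    ∃ t : Fˣ, (t : F) ≠ a ∧ (t : F) ≠ b :=
  let ⟨t, h⟩ := exists_ne3 h4 0 a b; ⟨Units.mk0 t h.1, h.2⟩

variable [FiniteDimensional F V] [FiniteDimensional F W]

theorem exists_Ee {n : ℕ} (hn : finrank F V = n + 1) {p : F[X]} (hp : p.Monic) (hd : p.natDegree = n)
    {μ D : Fˣ} (h0 : p.coeff 0 = (-1) ^ n * D / μ) (h1 : p.eval (μ : F) ≠ 0) :
    ∃ E : (End F V)ˣ, Cy E ∧ Sm E ∧ dt E = D ∧ E.1.charpoly = p * (X - C (μ : F)) := by
  obtain ⟨E, a1, a2⟩ := exists_cy (V := V) (hp.mul (monic_X_sub_C (μ : F)))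
    (by rw [hp.natDegree_mul (monic_X_sub_C _), hd, hn, natDegree_X_sub_C]) (by simp [h0])
  refine ⟨E, a1, a1.sm a2 h1, Units.ext ?_, a2⟩
  simp [dt_eq_coeff, a2, h0, hn, pow_succ, ← mul_assoc, ← mul_pow]

theorem exists_E3 [Finite F] {n : ℕ} (hn : finrank F V = n + 1) {Q : F[X]} (hQ : Q.Monic)
    (hd : Q.natDegree = n) (h2 : 2 ≤ n) (μ D : Fˣ) :
    ∃ (E : (End F V)ˣ) (a : F) (p : F[X]), Cy E ∧ Sm E ∧ dt E = D ∧
      E.1.charpoly = p * (X - C (μ : F)) ∧ p = Q + (C a * X + C ((-1) ^ n * D / μ - Q.coeff 0)) ∧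
      p.Monic ∧ p.natDegree = n ∧ p.coeff 0 = (-1) ^ n * D / μ ∧ ∀ t, p.eval t ≠ 0 := by
  obtain ⟨a, p, h1, h3, h4, h5, h6⟩ := exists_rootless hQ (hd ▸ h2) (c := (-1) ^ n * D / μ) (by simp)
  obtain ⟨E, a1, a2, a3, a4⟩ := exists_Ee hn h3 (h4.trans hd) h5 (h6 _)
  exact ⟨E, a, p, a1, a2, a3, a4, h1, h3, h4.trans hd, h5, h6⟩

section
variable [Fintype F] (h4 : 4 ≤ Fintype.card F)
include h4

theorem exists_avoid (hn : 3 ≤ finrank F V) (D : Fˣ) (a b : F) : ∃ E : (End F V)ˣ, Cy E ∧ Sm E ∧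
    dt E = D ∧ E.1.charpoly.eval a ≠ 0 ∧ E.1.charpoly.eval b ≠ 0 := by
  obtain ⟨μ, h1, h2⟩ := exists_unit_ne h4 a b
  obtain ⟨E, -, p, a1, a2, a3, a4, -, -, -, -, a5⟩ := exists_E3 (V := V) (n := finrank F V - 1)
    (by omega) (monic_X_pow _) (natDegree_X_pow _) (by omega) μ D
  exact ⟨E, a1, a2, a3, by simp [a4, a5, sub_eq_zero, h1.symm, h2.symm]⟩

theorem exists_E2 (hn : finrank F V = 2) (D : Fˣ) : ∃ (E : (End F V)ˣ) (a b : F), Cy E ∧ Sm E ∧
    dt E = D ∧ E.1.charpoly = (X - C a) * (X - C b) ∧ a * b = D := by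
  obtain ⟨r, hr⟩ : ∃ r : F, ∀ t : F, t * t = D → t = r ∨ t = -r := by
    by_cases h : ∃ r : F, r * r = D
    · exact ⟨h.choose, fun t ht => mul_self_eq_mul_self_iff.1 (ht.trans h.choose_spec.symm)⟩
    · exact ⟨0, fun t ht => (h ⟨t, ht⟩).elim⟩
  obtain ⟨μ, h⟩ := exists_unit_ne h4 r (-r)
  obtain ⟨E, a1, a2, a3, a4⟩ := exists_Ee hn (monic_X_sub_C ((D : F) / μ)) (natDegree_X_sub_C _)
    (μ := μ) (D := D) (by simp [neg_div])
    (by simpa [sub_eq_zero, eq_div_iff] using mt (hr μ) (not_or.2 h))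
  exact ⟨E, _, _, a1, a2, a3, a4, by simp⟩

theorem exists_dt (hn : 2 ≤ finrank F V) (D : Fˣ) : ∃ E : (End F V)ˣ, Cy E ∧ Sm E ∧ dt E = D := by
  obtain h | h := hn.eq_or_lt
  · obtain ⟨E, -, -, a1, a2, a3, -⟩ := exists_E2 h4 h.symm D
    exact ⟨E, a1, a2, a3⟩
  · obtain ⟨E, a1, a2, a3, -⟩ := exists_avoid h4 h D 0 0
    exact ⟨E, a1, a2, a3⟩

theorem exists_pair_le (hm : 3 ≤ finrank F W) (hn : finrank F W ≤ finrank F V) (D D' : Fˣ) :
    ∃ (E : (End F V)ˣ) (E' : (End F W)ˣ), (Cy E ∧ Sm E ∧ dt E = D) ∧ (Cy E' ∧ Sm E' ∧ dt E' = D') ∧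
      IsCoprime E.1.charpoly E'.1.charpoly := by
  obtain ⟨m, hm'⟩ : ∃ m, finrank F W = m + 1 := ⟨finrank F W - 1, by omega⟩
  obtain ⟨k, hk⟩ : ∃ k, finrank F V = k + m + 1 := ⟨finrank F V - (m + 1), by omega⟩
  obtain ⟨μ, h1, h2⟩ := exists_unit_ne h4 1 (D / D')
  obtain ⟨E', -, p', a1, a2, a3, a4, -, a5, a6, a7, a8⟩ := exists_E3 hm' (monic_X_pow _)
    (natDegree_X_pow _) (by omega) 1 D'
  obtain ⟨E, a, p, b1, b2, b3, b4, b5, -, -, -, b8⟩ := exists_E3 hk ((monic_X_pow k).mul a5)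
    (by rw [(monic_X_pow k).natDegree_mul a5, natDegree_X_pow, a6]) (by omega) μ D
  refine ⟨E, E', ⟨b1, b2, b3⟩, ⟨a1, a2, a3⟩, ?_⟩
  rw [a4, b4]
  refine .mul_left (.mul_right ?_ (cop_X (b8 _))) (.mul_right (cop_X (a8 _)).symm
    (cop_X (by simpa [sub_eq_zero] using h1.symm)))
  rw [b5, add_comm]
  refine (cop_lin (fun t _ => a8 t) (.inr ?_)).symm.add_mul_right_left _
  obtain rfl | hk := eq_or_ne k 0
  · rw [pow_zero, one_mul, a7, zero_add, sub_ne_zero]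
    contrapose! h2
    field_simp at h2 ⊢
    simpa using h2.symm
  · simp [hk.symm]

theorem exists_pair (hn : 3 ≤ finrank F V) (hm : 2 ≤ finrank F W) (D D' : Fˣ) :
    ∃ (E : (End F V)ˣ) (E' : (End F W)ˣ), (Cy E ∧ Sm E ∧ dt E = D) ∧ (Cy E' ∧ Sm E' ∧ dt E' = D') ∧
      IsCoprime E.1.charpoly E'.1.charpoly := by
  obtain h | h := hm.eq_or_lt
  · obtain ⟨E', a, b, a1, a2, a3, a4, -⟩ := exists_E2 h4 h.symm D'
    obtain ⟨E, b1, b2, b3, b4, b5⟩ := exists_avoid h4 hn D a b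
    exact ⟨E, E', ⟨b1, b2, b3⟩, ⟨a1, a2, a3⟩, a4 ▸ (cop_X b4).mul_right (cop_X b5)⟩
  obtain h' | h' := le_total (finrank F W) (finrank F V)
  · exact exists_pair_le h4 h h' D D'
  · obtain ⟨E', E, a, b, c⟩ := exists_pair_le h4 hn h' D' D
    exact ⟨E, E', b, a, c.symm⟩

end

/-- some cyclic operator with a simple eigenvalue is a product of `j` conjugates -/
def EXA (x : (End F V)ˣ) (j : ℕ) : Prop :=
  ∀ l : List Fˣ, l.length = j → ∃ E, Cy E ∧ Sm E ∧ Pr x l E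

def CG (x : (End F V)ˣ) (j : ℕ) : Prop := ∃ E, Cy E ∧ PG j x E

def HA (x : (End F V)ˣ) (j : ℕ) : Prop := ∀ E, Cy E → Sm E → dt E = dt x ^ j → PA j x E

def HG (x : (End F V)ˣ) (j : ℕ) : Prop := ∀ E, Cy E → Sm E → dt E = dt x ^ j → PG j x E

def NC (x : (End F V)ˣ) (j : ℕ) : Prop := ∀ M, NS M → dt M = dt x ^ j → PA j x M

def NG (x : (End F V)ˣ) (j : ℕ) : Prop := ∀ M, NS M → dt M = dt x ^ j → PG j x M

/-- some scalar is a product of `n` conjugates under the special linear group -/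
def Sc (x : (End F V)ˣ) : Prop := ∃ a, Pr x (List.replicate (finrank F V) 1) (sc V a)

variable {x M : (End F V)ˣ} {z : (End F W)ˣ} {j k : ℕ}

theorem T1' {b E : (End F V)ˣ} (hM : NS M) (hb : Cy b) (h1 : Cy E) (h2 : Sm E)
    (hd : dt M = dt b * dt E) : ∃ b' E', IsConj b b' ∧ IsConj E E' ∧ M = b' * E' := by
  obtain ⟨y, a1, a2⟩ := T1 hM h1.inv h2.inv hb (by simp [hd])
  obtain ⟨c, rfl⟩ := isConj_iff.1 a1
  exact ⟨_, _, a2, isConj_iff.2 ⟨c, rfl⟩, by group⟩

theorem CG.hg (h : CG x j) (hx : NS x) : HG x (j + 1) := fun E h1 h2 hd => by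
  obtain ⟨b, b1, b2⟩ := h
  obtain ⟨y, a1, a2⟩ := T1 hx.inv h1 h2 b1 (by simp [hd, b2.dt_eq, pow_succ'])
  simpa [add_comm] using ((pg_one (IsConj.refl x)).mul (b2.conj a2)).conj (by simpa using a1.symm)

omit [FiniteDimensional F V] in
theorem Pr.shift {l : List Fˣ} (h : Pr x l M) (hM : Full M) (d : Fˣ) : Pr x (l.map (d * ·)) M := by
  obtain ⟨c, rfl, e⟩ := hM d
  simpa [e] using h.conj c

omit [FiniteDimensional F V] in
theorem Pr.full_conj {l : List Fˣ} {N : (End F V)ˣ} (h : Pr x l M) (hM : Full M) (h' : IsConj M N) :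
    Pr x l N := by
  obtain ⟨c, rfl⟩ := isConj_iff.1 h'
  simpa [Function.comp_def] using (h.shift hM (dt c)⁻¹).conj c

theorem EXA.ha (h : EXA x j) (hx : NS x) : HA x (j + 1) := by
  rintro E h1 h2 hd (_ | ⟨d, l⟩) hl
  · simp at hl
  obtain ⟨b, b1, b2, b3⟩ := h (l.map (d⁻¹ * ·)) (by simpa using hl)
  obtain ⟨y, a1, a2⟩ := T1 hx.inv h1 h2 b1 (by simp [hd, b3.dt_eq, pow_succ', ← Nat.succ.inj hl])
  have h3 := h2.full.conj a1
  simpa [Function.comp_def] using (Pr.shift (l := 1 :: _) ⟨1, _, map_one _,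
    b3.full_conj b2.full a2, by simp⟩ h3 d).full_conj h3 a1.symm

theorem Cy.ha (h : Cy x) (hn : 3 ≤ finrank F V) : HA x 2 := fun E h1 h2 hd l hl => by
  obtain ⟨d, d', rfl⟩ := List.length_eq_two.1 hl
  obtain ⟨y, c, a1, a2, a3⟩ := T1p h.inv hn h1 h2 h (by simp [hd, sq]) (d⁻¹ * d')
  have h3 := h2.full.conj a1
  simpa using (Pr.shift (x := x) (l := [1, d⁻¹ * d']) ⟨1, _, map_one _, a2 ▸ pr_one c, by simp [← a3]⟩
    h3 d).full_conj h3 a1.symm

theorem EXA.nc (h : EXA x j) : NC x (j + j) := fun M hM hd l hl => by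
  obtain ⟨E, h1, h2, h3⟩ := h (l.take j) (by simp [hl])
  obtain ⟨E', h1', h2', h3'⟩ := h (l.drop j) (by simp [hl])
  obtain ⟨b, E', a1, a2, rfl⟩ := T1' hM h1 h1' h2' (by simp [hd, h3.dt_eq, h3'.dt_eq, pow_add, hl])
  exact l.take_append_drop j ▸ (h3.full_conj h2.full a1).append (h3'.full_conj h2'.full a2)

omit [FiniteDimensional F V] in
theorem EXA.cg (h : EXA x j) : CG x j :=
  let ⟨E, h1, _, h2⟩ := h (List.replicate j 1) List.length_replicate
  ⟨E, h1, _, List.length_replicate, h2⟩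

theorem CG.ng (h : CG x j) {E : (End F V)ˣ} (h1 : Cy E) (h2 : Sm E) (h3 : PG k x E) :
    NG x (j + k) := fun M hM hd => by
  obtain ⟨b, b1, b2⟩ := h
  obtain ⟨b, E', a1, a2, rfl⟩ := T1' hM b1 h1 h2 (by rw [hd, h3.dt_eq, b2.dt_eq, pow_add])
  exact (b2.conj a1).mul (h3.conj a2)

omit [FiniteDimensional F V] in
theorem NG.nc (h : NG x j) (hx : Full x) : NC x j := fun M hM hd => hx.pa (h M hM hd)

theorem NC.pad (h : NC x j) (hx : NS x) (hd : dt M = dt x ^ (j + 1)) : PA (j + 1) x M := by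
  rintro (_ | ⟨d, l⟩) hl
  · simp at hl
  have := hx.nontrivial
  have k : ∀ c, dt c = d → NS ((c * x * c⁻¹)⁻¹ * M) → Pr x (d :: l) M := fun c h1 h2 =>
    ⟨c, _, h1, h _ h2 (by simp [hd, pow_succ']) l (by simpa using hl), by group⟩
  obtain ⟨c, rfl, -⟩ := (sm_sc (V := V) 1).full d
  by_contra h0
  obtain ⟨a, ha⟩ := eq_sc_of_not_NS (mt (k c rfl) h0)
  obtain ⟨v, hv⟩ := hx.sim (sim_of_isConj (isConj_iff.2 ⟨c, rfl⟩))
  obtain ⟨ψ, h1, h2⟩ := exists_dual_one hv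
  have h3 := h2 v (mem_span_singleton_self v)
  obtain ⟨b, hb⟩ := eq_sc_of_not_NS (mt (k (dl ψ v (by simp [h3]) * c)
    (Units.ext (by simp [dt_dl, h3]))) h0)
  rw [inv_mul_eq_iff_eq_mul] at ha hb
  rw [ha, show ∀ e, e * c * x * (e * c)⁻¹ = e * (c * x * c⁻¹) * e⁻¹ from fun e => by group,
    ← sc_comm, ← sc_comm] at hb
  generalize c * x * c⁻¹ = y at *
  rw [← mul_assoc, eq_mul_inv_iff_mul_eq] at hb
  have h5 := LinearMap.congr_fun (congrArg Units.val hb) v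
  simp only [Units.val_mul, End.mul_apply, sc_apply, dl_apply, h1, h3, zero_smul, add_zero,
    one_smul] at h5
  obtain rfl : a = b := Units.ext (by simpa [h1, h3] using congrArg ψ h5)
  obtain rfl : v = 0 := by simpa using h5
  simp at hv

theorem NC.mono (h : NC x j) (hx : NS x) (hk : j ≤ k) : NC x k := by
  induction hk with
  | refl => exact h
  | step _ ih => exact fun M _ hd => ih.pad hx hd

theorem sc_of_odd (hx : NS x) (hd : dt x = 1) (h : Odd (finrank F V) ∨ Full x) : Sc x := by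
  have := hx.nontrivial
  obtain ⟨n, hn⟩ := Nat.exists_eq_add_one.2 (finrank_pos (R := F) (M := V))
  have h1 := mul_geom_sum (X : F[X]) (n + 1)
  have h2 : (∑ i ∈ Finset.range (n + 1), (X : F[X]) ^ i).Monic := monic_geom_sum_X (by simp)
  have h3 : (X ^ (n + 1) - 1 : F[X]).Monic := monic_X_pow_sub_C 1 (by simp)
  have h4 : (X ^ (n + 1) - 1 : F[X]).natDegree = n + 1 := natDegree_X_pow_sub_C
  obtain ⟨y, ψ, z, e, f, b1, b2, b3, b4, b5, b6, -⟩ := exists_factor (toLinearEquiv x)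
    hx.choose_spec hn h2 (by
      rw [← h1, show (X - 1 : F[X]) = X - C 1 from rfl, (monic_X_sub_C _).natDegree_mul h2,
        natDegree_X_sub_C] at h4
      omega) (by simp [Finset.sum_range_succ']) h3 h4
  obtain ⟨b, hb⟩ := exists_unit' (a := x.1 * y) (b6 ▸ by simp)
  obtain ⟨y, rfl, rfl⟩ : ∃ w : (End F V)ˣ, w.1 = y ∧ x * w = b :=
    ⟨x⁻¹ * b, by rw [Units.val_mul, hb]; exact LinearMap.ext fun v => inv_app x _, by simp⟩
  obtain ⟨μ, m1, m2⟩ := exists_quot_scalar b1 b2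
  have h5 : dt y = (-1) ^ n := Units.ext (by
    simpa [hd, show (x.1 * y.1).charpoly = _ from b6, hn, pow_succ] using dt_eq_coeff (x * y))
  obtain rfl : μ = 1 := by
    rw [← dt_val, h5, LinearMap.det_eq_sign_charpoly_coeff, b4, finrank_ker_dual b1 hn] at m2
    simpa [Finset.sum_range_succ'] using m2.symm
  have h6 : y ^ (n + 1) = 1 := Units.ext (LinearMap.ext fun v => by
    have := ev_intertwine (z := z) (y := y.1) (LinearMap.ker ψ).subtype (fun x => (b2 x).symm)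
      ⟨y.1 v - v, by simp [m1]⟩ z.charpoly
    rw [ev_charpoly, map_zero, b4, show (LinearMap.ker ψ).subtype _ = ev y.1 v (X - 1) by
      simp [ev_apply], ev_apply, ← ev_mul, mul_comm, h1] at this
    simpa [ev_apply, sub_eq_zero] using this.symm)
  have h7 : (x * y) ^ (n + 1) = 1 := Units.ext (by
    simpa [show (x.1 * y.1).charpoly = _ from b6, sub_eq_zero] using (x.1 * y.1).aeval_self_charpoly)
  have h8 := pr_pow x y (n + 1)
  rw [h6, h7, h5] at h8
  refine ⟨1, ?_⟩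
  rw [hn] at h ⊢
  obtain h | h := h
  · simpa [(Nat.odd_add_one.trans Nat.not_odd_iff_even).1 h |>.neg_one_pow] using h8
  · simpa using h.pa ⟨_, by simp, h8⟩ (List.replicate (n + 1) 1) List.length_replicate

/-- `r - 1` has rank at most one -/
def R1 (r : (End F V)ˣ) : Prop := ∃ (θ : Dual F V) (u : V), ∀ v, r.1 v = v + θ v • u

theorem dt_of_R1 {θ : Dual F V} {u : V} (h : ∀ v, x.1 v = v + θ v • u) : (dt x : F) = 1 + θ u := by
  rw [dt_val, show x.1 = LinearMap.transvection θ u from LinearMap.ext h,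
    LinearMap.transvection.det]

omit [FiniteDimensional F V] in
theorem R1.of_mem {u : V} (h : ∀ v, x.1 v - v ∈ F ∙ u) : R1 x := by
  obtain rfl | h0 := eq_or_ne u 0
  · exact ⟨0, 0, fun v => by simpa [sub_eq_zero] using h v⟩
  obtain ⟨ψ, h1, -⟩ := exists_dual_one (D := (⊥ : Submodule F V)) (w := u) (by simpa)
  refine ⟨ψ ∘ₗ (x.1 - 1), u, fun v => ?_⟩
  obtain ⟨c, hc⟩ := mem_span_singleton.1 (h v)
  simp [h1, eq_add_of_sub_eq' hc.symm]

theorem exists_both {A : Type*} [AddCommGroup A] [Module F A] (f g : A →ₗ[F] F) (hf : f ≠ 0)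
    (hg : g ≠ 0) : ∃ a, f a = 1 ∧ g a ≠ 0 := by
  obtain ⟨a, ha⟩ := LinearMap.range_eq_top.1 (Module.Dual.range_eq_top_of_ne_zero hf) 1
  obtain ⟨b, hb⟩ := DFunLike.ne_iff.1 hg
  by_cases h1 : g a = 0
  · by_cases h2 : f b = 0
    · exact ⟨a + b, by simp [ha, h2], by simpa [h1] using hb⟩
    · exact ⟨(f b)⁻¹ • b, by simp [h2], by simpa [h2] using hb⟩
  · exact ⟨a, ha, h1⟩

theorem R1.isConj {r r' : (End F V)ˣ} (h : R1 r) (h' : R1 r') (h1 : r ≠ 1) (h1' : r' ≠ 1)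
    (hd : dt r = dt r') : IsConj r r' := by
  obtain ⟨θ, u, h⟩ := h
  obtain ⟨θ', u', h'⟩ := h'
  have k : ∀ {r : (End F V)ˣ} {θ : Dual F V} {u : V}, (∀ v, r.1 v = v + θ v • u) → r ≠ 1 →
      θ ≠ 0 ∧ u ≠ 0 := fun h h1 =>
    ⟨by rintro rfl; exact h1 (Units.ext (LinearMap.ext (by simpa using h))),
      by rintro rfl; exact h1 (Units.ext (LinearMap.ext (by simpa using h)))⟩
  have h2 : θ u = θ' u' := by simpa [dt_of_R1 h, dt_of_R1 h'] using congrArg Units.val hd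
  obtain ⟨φ, a1, a2⟩ := exists_both (Dual.eval F V u) (Dual.eval F V u')
    (mt (eval_apply_eq_zero_iff F _).1 (k h h1).2) (mt (eval_apply_eq_zero_iff F _).1 (k h' h1').2)
  simp only [Dual.eval_apply] at a1 a2
  set c := dl φ (u' - u) (by simpa [a1])
  have c1 : c.1 u = u' := by simp [c, dl_apply, a1]
  obtain ⟨w, b1, b2⟩ := exists_both θ' (θ ∘ₗ (c⁻¹).1) (k h' h1').1 fun e =>
    (k h h1).1 (LinearMap.ext fun v => by simpa using LinearMap.congr_fun e (c.1 v))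
  set e := dl (θ ∘ₗ (c⁻¹).1 - θ') w (by simpa [b1] using b2)
  have e1 : e.1 u' = u' := by simp [e, dl_apply, ← h2, show (c⁻¹).1 u' = u by simp [← c1]]
  have e2 : ∀ v, θ' (e.1 (c.1 v)) = θ v := fun v => by simp [e, dl_apply, b1]
  exact isConj_iff.2 ⟨e * c, mul_inv_eq_iff_eq_mul.2 (Units.ext (LinearMap.ext fun v => by
    simp [h, h', e2, c1, e1]))⟩

section
variable [Fintype F] (h4 : 4 ≤ Fintype.card F) {r : (End F V)ˣ} (hr : R1 r) (h1 : r ≠ 1)
include h4 hr h1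

theorem R1.mono (hd : dt r = 1) (h : PG (k + 1) r M) (hj : k ≤ j) : PG (j + 1) r M := by
  have h2 : PG 2 r r := by
    obtain ⟨a, a0, a1, -⟩ := exists_ne3 h4 0 1 0
    obtain ⟨θ, u, e⟩ := id hr
    have h3 : θ u = 0 := by simpa [hd] using dt_of_R1 e
    have h5 : ∀ a : F, a ≠ 0 → IsConj r (dl θ (a • u) (by simp [h3])) := fun a ha =>
      hr.isConj ⟨θ, _, dl_apply _ _ _⟩ h1 (fun h => h1 (Units.ext (LinearMap.ext fun v => by
        simpa [dl_apply, ha, e] using LinearMap.congr_fun (congrArg Units.val h) v)))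
        (Units.ext (by simp [hd, dt_dl, h3]))
    convert (pg_one (h5 a a0)).mul (pg_one (h5 (1 - a) (sub_ne_zero.2 a1.symm))) using 1
    exact Units.ext (LinearMap.ext fun v => by simp [dl_apply, e, h3]; module)
  induction hj with
  | refl => exact h
  | step _ ih =>
    obtain ⟨_ | ⟨d, l⟩, hl, ih⟩ := ih
    · simp at hl
    obtain ⟨c, N, -, h5, rfl⟩ := ih
    simpa [add_comm, add_left_comm] using (h2.conj (isConj_iff.2 ⟨c, rfl⟩)).mul
      ⟨l, by simpa using hl, h5⟩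

theorem R1.step {s : (End F V)ˣ} (hs : R1 s) (hd : dt s = dt r)
    (h : PG k r M ∨ dt r = 1 ∧ M = 1) : PG (k + 1) r (s * M) ∨ dt r = 1 ∧ s * M = 1 := by
  obtain rfl | h2 := eq_or_ne s 1
  · obtain h | h := h
    · obtain _ | k := k
      · obtain ⟨l, hl, h⟩ := h
        obtain rfl := List.length_eq_zero_iff.1 hl
        exact .inr ⟨by simpa using hd.symm, (one_mul _).trans h⟩
      · exact .inl (by simpa using hr.mono h4 h1 (by simpa using hd.symm) h k.le_succ)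
    · exact .inr (by simpa using h)
  have h3 := pg_one (hr.isConj hs h1 h2 hd.symm)
  obtain h | ⟨h, rfl⟩ := h
  · exact .inl (add_comm k 1 ▸ h3.mul h)
  · exact .inl (by simpa using hr.mono h4 h1 h h3 k.zero_le)

theorem R1.prod (m : ℕ) : ∀ (Y : Submodule F V) (N : (End F V)ˣ), finrank F Y = m →
    (∀ v, N.1 v - v ∈ Y) → dt N = dt r ^ m → (2 ≤ m → ∃ e ∈ Y, N.1 e ∉ F ∙ e) →
    PG m r N ∨ dt r = 1 ∧ N = 1 := by
  induction m with
  | zero =>
    intro Y N hY h _ _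
    rw [finrank_eq_zero.1 hY] at h
    exact .inl ⟨[], rfl, Units.ext (LinearMap.ext fun v => sub_eq_zero.1 (h v))⟩
  | succ m ih =>
  intro Y N hY h hd hN
  obtain rfl | hm := eq_or_ne m 0
  · obtain ⟨u, -, hu⟩ := finrank_eq_one_iff'.1 hY
    simpa using hr.step h4 h1 (k := 0) (M := 1) (s := N) (.of_mem (u := u) fun v => by
      obtain ⟨c, hc⟩ := hu ⟨_, h v⟩
      exact mem_span_singleton.2 ⟨c, congrArg Subtype.val hc⟩) (by simpa using hd) (.inl ⟨[], rfl, rfl⟩)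
  obtain ⟨e, e1, e2⟩ := hN (by omega)
  have i1 : ∀ v ∈ Y, N.1 v ∈ Y := fun v hv => by simpa using add_mem (h v) hv
  set f := (N⁻¹).1 e
  have f1 : N.1 f = e := app_inv _ _
  have f2 : f ∈ Y := by simpa [f1] using sub_mem e1 (h f)
  have f3 : ∀ a b : F, a • e + b • f = 0 → a = 0 ∧ b = 0 := fun a b hab => by
    have h2 : a • N.1 e + b • e = 0 := by simpa [f1] using congrArg N.1 hab
    obtain rfl : a = 0 := by_contra fun h0 => e2 ((smul_mem_iff _ h0).1
      (mem_span_singleton.2 ⟨-b, by rw [eq_neg_of_add_eq_zero_left h2, neg_smul]⟩))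
    exact ⟨rfl, by_contra fun h0 => e2 (by simp [show e = 0 by simpa [h0] using h2])⟩
  obtain ⟨w, w1, w2, w3⟩ : ∃ w ∈ Y, (∀ a b c : F, a • e + b • f + c • w = 0 → a = 0 ∧ b = 0) ∧
      (2 ≤ m → N.1 w ∉ span F {w, e}) := by
    by_cases h2 : 2 ≤ m
    swap
    · exact ⟨0, zero_mem _, fun a b c => by simpa using f3 a b, fun h => (h2 h).elim⟩
    obtain ⟨w, w1, w2⟩ := exists_notMem_of_lt (D := span F {e, f}) (W := Y) (by
      have : finrank F (span F {e, f}) ≤ 2 := by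
        rw [← Matrix.range_cons_cons_empty]
        exact finrank_range_le_card (R := F) ![e, f]
      omega)
    have w3 : ∀ a b c : F, a • e + b • f + c • w = 0 → a = 0 ∧ b = 0 ∧ c = 0 := fun a b c h => by
      obtain rfl : c = 0 := by_contra fun h0 => w2 ((smul_mem_iff _ h0).1
        (mem_span_pair.2 ⟨-a, -b, by linear_combination (norm := module) -h⟩))
      simpa using f3 a b (by simpa using h)
    by_cases h3 : N.1 w ∈ span F {w, e}
    swap
    · exact ⟨w, w1, fun a b c h => ⟨(w3 a b c h).1, (w3 a b c h).2.1⟩, fun _ => h3⟩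
    refine ⟨w + f, add_mem w1 f2, fun a b c h => ?_, fun _ h5 => ?_⟩
    · obtain ⟨h1, h2, rfl⟩ := w3 a (b + c) c (by linear_combination (norm := module) h)
      exact ⟨h1, by simpa using h2⟩
    obtain ⟨a, b, hab⟩ := mem_span_pair.1 h3
    obtain ⟨a', b', hab'⟩ := mem_span_pair.1 h5
    rw [map_add, f1, ← hab] at hab'
    obtain ⟨-, rfl, h6⟩ := w3 (b' - b - 1) a' (a' - a) (by linear_combination (norm := module) hab')
    obtain rfl : a = 0 := by simpa using h6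
    exact w2 (mem_span_pair.2 ⟨0, b, unit_inj N (by simpa [f1] using hab)⟩)
  obtain ⟨ε, g1, g2⟩ := exists_dual_one (D := span F {f - ((dt r)⁻¹ : Fˣ).1 • e, w}) (w := e)
    fun h => by
      obtain ⟨a, b, hab⟩ := mem_span_pair.1 h
      obtain ⟨h2, rfl⟩ := w2 (-1 - a * ((dt r)⁻¹ : Fˣ).1) a b
        (by linear_combination (norm := module) hab)
      simp at h2
  have g3 : ε f = ((dt r)⁻¹ : Fˣ).1 := by
    simpa [g1, sub_eq_zero] using g2 _ (subset_span (Set.mem_insert _ _))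
  have g4 : ε w = 0 := g2 _ (subset_span (by simp))
  set s := dl (ε ∘ₗ (N⁻¹).1 - ε) e (by simpa [g1] using g3 ▸ Units.ne_zero _)
  have s1 : ∀ v, (s * N).1 v = N.1 v + (ε v - ε (N.1 v)) • e := fun v => by simp [s, dl_apply]
  have s2 : dt s = (dt r)⁻¹ := Units.ext (by simpa [s, dt_dl, g1] using g3)
  have := finrank_inf_ker e1 (φ := ε) (by simp [g1])
  simpa using hr.step h4 h1 (s := s⁻¹) (.of_mem (u := e) fun v => mem_span_singleton.2
      ⟨-(ε ∘ₗ (N⁻¹).1 - ε) ((s⁻¹).1 v), by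
        rw [neg_smul, ← app_inv s v, inv_app, dl_apply]; simp⟩) (by simp [s2])
    (ih (Y ⊓ LinearMap.ker ε) (s * N) (by omega) (fun v => ⟨by
      rw [s1, add_sub_right_comm]; exact add_mem (h v) (smul_mem _ _ e1), by
      simp [-Units.val_mul, s1, g1]⟩)
      (by simp [s2, hd, pow_succ']) fun h2 => ⟨w, ⟨w1, g4⟩, fun h5 => w3 h2 (by
        obtain ⟨c, hc⟩ := mem_span_singleton.1 h5
        exact mem_span_pair.2 ⟨c, -(ε w - ε (N.1 w)), by rw [hc, s1]; module⟩)⟩)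

theorem R1.ng (a : Fˣ) : NG (sc V a * r) (finrank F V) := fun M hM hd => by
  obtain ⟨l, hl, h⟩ | ⟨-, h⟩ := hr.prod h4 h1 _ ⊤ (sc V (a ^ finrank F V)⁻¹ * M) (finrank_top F V)
    (fun _ => trivial) (by simp [hd, dt_sc, mul_pow]) fun _ =>
      ⟨_, trivial, (hM.sc_mul _).choose_spec⟩
  · exact ⟨l, hl, by simpa [hl] using h.sc_mul a⟩
  · obtain ⟨v, hv⟩ := hM.sc_mul (a ^ finrank F V)⁻¹
    simp [-map_inv, h] at hv

end

section
variable {τ δ : F} {e : V} (hq : Qd x τ δ) (he : x.1 e ∉ F ∙ e)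
include he

theorem span_pair_top (hn : finrank F V = 2) : span F {e, x.1 e} = ⊤ := by
  rw [← Matrix.range_cons_cons_empty]
  exact ((LinearIndependent.pair_iff' (by rintro rfl; simp at he)).2 fun c h =>
    he (mem_span_singleton.2 ⟨c, h⟩)).span_eq_top_of_card_eq_finrank' (by simp [hn])

include hq

omit [FiniteDimensional F V] in
theorem Qd.ne : δ ≠ 0 := by
  rintro rfl
  exact he (mem_span_singleton.2 ⟨τ, unit_inj x (by simp [hq e])⟩)

theorem Qd.dt_eq (hn : finrank F V = 2) : (dt x : F) = δ := by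
  have h : Gen x.1 e := fun Y hY hi => eq_top_iff.2 (span_pair_top he hn ▸ span_le.2
    (Set.pair_subset hY (hi _ hY)))
  rw [dt_eq_coeff, h.charpoly_eq (P := X ^ 2 - C τ * X + C δ) (by monicity!)
    (by rw [hn]; compute_degree!) (by simp [ev_apply, sq, hq e])]
  simp [hn]

theorem Qd.fam (c : Fˣ) (d : F) : ∃ E, Pr x [1, c] E ∧
    E.1 e = -(δ * c) • e + (τ - d + τ * c) • x.1 e ∧
    E.1 (x.1 e) = -(d * δ) • e + (d * τ - (d ^ 2 - τ * d + δ) / c) • x.1 e := by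
  obtain ⟨ψ, h1, h2⟩ := exists_dual_one he
  have h3 := h2 e (mem_span_singleton_self e)
  set g := dl ψ ((τ - d) • e + ((c : F) - 1) • x.1 e) (by simp [h1, h3])
  have g1 : g.1 e = e := by simp [g, dl_apply, h3]
  have g2 : g.1 (x.1 e) = (τ - d) • e + (c : F) • x.1 e := by simp [g, dl_apply, h1]; module
  have g3 : (g⁻¹).1 e = e := unit_inj g (by simp [g1])
  have g4 : (g⁻¹).1 (x.1 e) = (c : F)⁻¹ • (x.1 e - (τ - d) • e) := unit_inj g (by simp [g1, g2])
  refine ⟨x * (g * x * g⁻¹), ⟨1, _, map_one _, ⟨g, 1, Units.ext (by simp [g, dt_dl, h1, h3]), rfl,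
    (mul_one _).symm⟩, by simp⟩, ?_, ?_⟩
  · simp only [Units.val_mul, End.mul_apply, g3, g2, map_add, map_smul, hq e]
    module
  · simp only [Units.val_mul, End.mul_apply, g4, g2, g1, map_add, map_smul, map_sub, hq e]
    match_scalars <;> field

theorem Qd.fam_cy (hn : finrank F V = 2) (c : Fˣ) {d : F} (hd : d ≠ 0) : ∃ E, Pr x [1, c] E ∧ Cy E ∧
    E.1.charpoly = X ^ 2 - C (d * τ - (d ^ 2 - τ * d + δ) / c - δ * c) * X + C (δ ^ 2) := by
  obtain ⟨E, h1, h2, h3⟩ := hq.fam he c d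
  have h : Gen E.1 (x.1 e) := fun Y hY hi => eq_top_iff.2 (span_pair_top he hn ▸ span_le.2
    (Set.pair_subset ((Y.smul_mem_iff (neg_ne_zero.2 (mul_ne_zero hd (hq.ne he)))).1
      ((Y.add_mem_iff_left (Y.smul_mem _ hY)).1 (h3 ▸ hi _ hY))) hY))
  refine ⟨E, h1, ⟨_, h⟩, h.charpoly_eq (by monicity!) (by rw [hn]; compute_degree!) ?_⟩
  simp only [ev_apply, sq, map_add, map_sub, map_mul, aeval_X, aeval_C,
    LinearMap.sub_apply, End.mul_apply, Module.algebraMap_end_apply, h3, h2, map_smul]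
  match_scalars <;> field

theorem Qd.adj (hn : finrank F V = 2) : Pr x [1, -1] (sc V (dt x)) := by
  obtain ⟨E, h1, h2, h3⟩ := hq.fam he (-1) 0
  convert h1
  refine Units.ext (LinearMap.ext_on (span_pair_top he hn) ?_)
  rintro _ (rfl | rfl)
  · simp [h2, hq.dt_eq he hn]
  · simp [h3, hq.dt_eq he hn, div_neg]

omit [FiniteDimensional F W] in
theorem Qd.r1 (hn : finrank F V = 2) {a : Fˣ} (ha : (a : F) * a = τ * a - δ) :
    R1 (sc _ a⁻¹ * bs x (sc W a)) := by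
  refine .of_mem (u := (x.1 e - (a : F) • e, 0)) fun v => ?_
  obtain ⟨b, c, h⟩ := mem_span_pair.1 ((span_pair_top he hn).ge (mem_top (x := v.1)))
  refine mem_span_singleton.2 ⟨(a : F)⁻¹ * (b + c * (τ - a)), Prod.ext ?_ (by simp [-map_inv, bs_val])⟩
  simp only [bs_val, ← h, Prod.smul_fst, Prod.fst_sub, Units.val_mul, End.mul_apply, sc_apply,
    LinearMap.prodMap_apply, map_add, map_smul, hq e, show δ = τ * a - a * a by rw [ha]; ring,
    Units.val_inv_eq_inv_val]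
  match_scalars <;> field

end

end Cfsg.Agent.Lin
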