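import Mathlib
import Cfsg.Agent.Lin.CovC

/-!
Lev's theorem: for `n ≥ 3` and at least four field elements, every element of `SL n` is, up to a
scalar, a product of `n` conjugates of a given non-scalar element.
-/

set_option autoImplicit false

namespace Cfsg.Agent.Lin

open Module Submodule Polynomial KSG LinearMap.GeneralLinearGroup

universe u

variable {F V W U : Type u} [Field F] [AddCommGroup V] [Module F V] [AddCommGroup W] [Module F W]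
  [AddCommGroup U] [Module F U] {x : (End F V)ˣ} {z : (End F W)ˣ} {a j : ℕ} {τ δ : F}

theorem EXA.sim (h : EXA x j) (h' : Sim x.1 z.1) : EXA z j := fun l hl => by
  obtain ⟨e, rfl⟩ := exists_cg h'
  obtain ⟨E, h1, h2, h3⟩ := h l hl
  exact ⟨_, h1.sim (sim_cg e E), h2.sim (sim_cg e E), h3.cg e⟩

theorem NC.sim (h : NC x j) (h' : Sim x.1 z.1) : NC z j := fun M hM hd l hl => by
  obtain ⟨e, rfl⟩ := exists_cg h'
  obtain ⟨M, rfl⟩ := (cg e).surjective M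
  exact (h M (hM.sim (sim_cg e M).symm) (by simpa only [dt_cg] using hd) l hl).cg e

theorem NG.sim (h : NG x j) (h' : Sim x.1 z.1) : NG z j := fun M hM hd => by
  obtain ⟨e, rfl⟩ := exists_cg h'
  obtain ⟨M, rfl⟩ := (cg e).surjective M
  obtain ⟨l, hl, h⟩ := h M (hM.sim (sim_cg e M).symm) (by simpa only [dt_cg] using hd)
  exact ⟨l, hl, h.cg e⟩

theorem Sc.sim (h : Sc x) (h' : Sim x.1 z.1) : Sc z := by
  obtain ⟨e, rfl⟩ := exists_cg h'
  obtain ⟨a, h⟩ := h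
  refine ⟨a, ?_⟩
  convert h.cg e using 1
  · rw [e.finrank_eq]
  · exact Units.ext (LinearMap.ext fun v => by simp)

theorem dt_sim (h : Sim x.1 z.1) : dt x = dt z := Units.ext h.det

theorem PG.pow {M : (End F V)ˣ} (h : PG j x M) (s : ℕ) : PG (j * s) x (M ^ s) := by
  induction s with
  | zero => exact ⟨[], rfl, rfl⟩
  | succ s ih => exact pow_succ M s ▸ ih.mul h

theorem pg_sc (b : Fˣ) (j : ℕ) : PG j (sc V b) (sc V (b ^ j)) := map_pow (sc V) b j ▸ pg_pow _ j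

/-- the conclusion of the theorem -/
def Cov (x : (End F V)ˣ) : Prop := NC x (finrank F V) ∧ Sc x

theorem Cov.sim (h : Cov x) (h' : Sim x.1 z.1) : Cov z := ⟨h'.finrank_eq ▸ h.1.sim h', h.2.sim h'⟩

/-- the state of the induction -/
def St (x : (End F V)ˣ) (a : ℕ) : Prop :=
  Wit x ∧ 1 ≤ a ∧ 3 ≤ finrank F V ∧ (EXA x a ∨ a = 1 ∧ Cy x)

theorem St.sim (h : St x a) (h' : Sim x.1 z.1) : St z a :=
  ⟨h.1.sim h'.symm, h.2.1, h'.finrank_eq ▸ h.2.2.1, h.2.2.2.imp (·.sim h') (.imp_right (·.sim h'))⟩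

theorem St.cg (h : St x a) : CG x a := by
  obtain ⟨-, -, -, h | ⟨rfl, h⟩⟩ := h
  · exact h.cg
  · exact ⟨x, h, pg_one (IsConj.refl x)⟩

variable [FiniteDimensional F V] [FiniteDimensional F W] [FiniteDimensional F U]

theorem St.ha (h : St x a) : HA x (a + 1) := by
  obtain ⟨h1, -, h2, h | ⟨rfl, h⟩⟩ := h
  · exact h.ha h1.ns
  · exact h.ha h2

theorem NS.two_le (h : NS x) : 2 ≤ finrank F V := by
  obtain ⟨_, _, _, _, h1, -, h2, -⟩ := exists_split h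
  rw [← h1.finrank_eq, finrank_prod]
  omega

theorem cov_of_lt (hx : NS x) (hd : dt x = 1) (h : NC x j) (hj : j < finrank F V) : Cov x := by
  obtain ⟨n, hn⟩ : ∃ n, finrank F V = n + 1 := ⟨finrank F V - 1, by omega⟩
  exact ⟨h.mono hx hj.le, 1, hn ▸ (h.mono hx (by omega : j ≤ n)).pad hx (by simp [hd]) _
    List.length_replicate⟩

theorem Sm.split (h : Sm x) : ∃ (Y : Submodule F V) (y : (End F Y)ˣ) (b : Fˣ),
    Sim (Lin.bs (sc F b) y).1 x.1 := by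
  obtain ⟨u, ψ, μ, h1, h2, h3⟩ := h
  obtain ⟨y, hy⟩ := exists_res x (Y := LinearMap.ker ψ) fun v hv => by
    simp [h3, LinearMap.mem_ker.1 hv]
  obtain ⟨e, he⟩ := exists_coprod (LinearMap.toSpanSingleton F V u) (LinearMap.ker ψ).subtype
    (fun v => ⟨ψ v, ⟨v - ψ v • u, by simp [h1]⟩, by simp⟩) (by
      simpa [add_comm] using Module.Dual.finrank_ker_add_one_of_ne_zero (f := ψ)
        (by rintro rfl; simp at h1))
  have h0 : μ ≠ 0 := by
    rintro rfl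
    simp [unit_inj x (h2.trans (by simp : _ = x.1 0))] at h1
  exact ⟨_, y, Units.mk0 μ h0, e, fun p => by simp [he, bs_val, hy, h2, smul_smul, mul_comm]⟩

theorem sm_of_not_NS (h : ¬ NS x) (h0 : finrank F V ≠ 0) : ∃ b, x = sc V b ∧ Sm x := by
  have := finrank_pos_iff.1 (Nat.pos_of_ne_zero h0)
  obtain ⟨b, rfl⟩ := eq_sc_of_not_NS h
  exact ⟨b, rfl, sm_sc b⟩

omit [FiniteDimensional F V] [FiniteDimensional F W] in
theorem Sm.bs' (h : Sm z) (x : (End F V)ˣ) : Sm (Lin.bs x z) := (h.bs x).sim (sim_bs_comm _ _)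

theorem Qd.split (hq : Qd x τ δ) (h : NS x) : ∃ (Y Z : Submodule F V) (y : (End F Y)ˣ)
    (z : (End F Z)ˣ), Sim (bs y z).1 x.1 ∧ NS y ∧ finrank F Y = 2 ∧ Qd y τ δ ∧ Qd z τ δ := by
  obtain ⟨Y, Z, y, z, h1, h2, h3, -⟩ := exists_split h
  exact ⟨Y, Z, y, z, h1, h2.ns h3, ((hq.left h1).finrank_le h2).antisymm h3, hq.left h1, hq.right h1⟩

theorem Qd.pure (m : ℕ) : ∀ (W : Type u) [AddCommGroup W] [Module F W] [FiniteDimensional F W]
    (z : (End F W)ˣ), finrank F W = m → Qd z τ δ → ¬ Sm z →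
    ∃ s, finrank F W = 2 * s ∧ (dt z : F) = δ ^ s := by
  induction m using Nat.strong_induction_on with
  | _ m ih =>
  intro W _ _ _ z hm hq hz
  by_cases h0 : finrank F W = 0
  · exact ⟨0, h0, (LinearMap.det_eq_one_of_finrank_eq_zero h0 _).trans (pow_zero _).symm⟩
  obtain ⟨Y, Z, y, z', h1, h2, h3, h4, h5⟩ := hq.split
    (by_contra fun h => hz (sm_of_not_NS h h0).choose_spec.2)
  have h6 := h1.finrank_eq
  rw [finrank_prod] at h6
  obtain ⟨s, h7, h8⟩ := ih _ (by omega) Z z' rfl h5 fun h => hz ((h.bs' y).sim h1)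
  exact ⟨s + 1, by omega, by
    rw [← dt_sim h1, dt_bs, Units.val_mul, h8, h4.dt_eq h2.choose_spec h3, pow_succ']⟩

variable [Fintype F] (h4 : 4 ≤ Fintype.card F)
include h4

theorem Cy.hg (h : Cy z) (hn : 2 ≤ finrank F W) (j : ℕ) : HG z (j + 2) := by
  induction j with
  | zero => exact CG.hg ⟨z, h, pg_one (IsConj.refl z)⟩ (h.ns hn)
  | succ j ih =>
    obtain ⟨E, h1, h2, h3⟩ := exists_dt h4 hn (dt z ^ (j + 2))
    exact CG.hg ⟨E, h1, ih E h1 h2 h3⟩ (h.ns hn)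

theorem St.merge (h : St x a) (hz : Cy z) (hn : 2 ≤ finrank F W) : St (bs x z) (a + 1) := by
  obtain ⟨a, rfl⟩ := Nat.exists_eq_add_one.2 h.2.1
  obtain ⟨E, E', ⟨a1, a2, a3⟩, ⟨b1, b2, b3⟩, c⟩ := exists_pair h4 h.2.2.1 hn (dt x ^ (a + 2))
    (dt z ^ (a + 2))
  exact ⟨h.1.bs z, by omega, by rw [finrank_prod]; have := h.2.2.1; omega, .inl fun l hl =>
    ⟨_, a1.bs b1 c, a2.bs _, (h.ha E a1 a2 a3).bs (hz.hg h4 hn a E' b1 b2 b3) l hl⟩⟩

theorem ng_sc (b : Fˣ) (k : ℕ) : ∀ (V W : Type u) [AddCommGroup V] [Module F V]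
    [FiniteDimensional F V] [AddCommGroup W] [Module F W] [FiniteDimensional F W] (x : (End F V)ˣ)
    (a : ℕ), finrank F W = k → Wit x → CG x a → 2 * a + 1 ≤ finrank F V → 3 ≤ finrank F V →
    ∃ m ≤ finrank F V + k, NG (bs x (sc W b)) m := by
  induction k using Nat.twoStepInduction with
  | zero =>
    intro V W _ _ _ _ _ _ x a hk h1 h2 h3 h5
    obtain ⟨E, e1, e2, e3⟩ := exists_dt h4 (by omega : 2 ≤ finrank F V) (dt x ^ (a + 1))
    exact ⟨_, by omega, (h2.ng e1 e2 (h2.hg h1.ns E e1 e2 e3)).sim (sim_bs_triv hk _ _).symm⟩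
  | one =>
    intro V W _ _ _ _ _ _ x a hk h1 h2 h3 h5
    obtain ⟨E, e1, e2, e3, e4, -⟩ := exists_avoid h4 h5 (dt x ^ (a + 1)) (b ^ (a + 1) : Fˣ) 0
    obtain ⟨c1, c2⟩ := cy_sc hk (b ^ (a + 1))
    have c3 := e1.bs c1 (c2 ▸ cop_X e4)
    have c4 := (h2.hg h1.ns E e1 e2 e3).bs (pg_sc (V := W) b (a + 1))
    exact ⟨_, by omega, CG.ng ⟨_, c3, c4⟩ c3 (e2.bs _) c4⟩
  | more k ih =>
    intro V W _ _ _ _ _ _ x a hk h1 h2 h3 h5
    obtain ⟨A, a1, a2⟩ := h2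
    have h6 : finrank F (V × F × F) = finrank F V + 2 := by simp
    obtain ⟨y, y1, y2⟩ := T2 (h1.bs (sc (F × F) b)) a1 h6 (b ^ a)
    obtain ⟨m, m1, m2⟩ := ih _ (Fin k → F) _ (1 + a) (by simp) (h1.bs _) ⟨_, y2,
      (pg_one (IsConj.refl _)).mul ((a2.bs (pg_sc b a)).conj (isConj_of_sim y1))⟩ (by omega)
      (by omega)
    exact ⟨m, by omega, m2.sim ((sim_assoc _ _ _).trans (sim_bs (Sim.refl _)
      (sim_sc (V := (F × F) × (Fin k → F)) (by simp [hk, add_comm]) b)))⟩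

theorem St.all (c m : ℕ) : ∀ (V W : Type u) [AddCommGroup V] [Module F V]
    [FiniteDimensional F V] [AddCommGroup W] [Module F W] [FiniteDimensional F W] (x : (End F V)ˣ)
    (z : (End F W)ˣ) (a : ℕ), finrank F W = m → St x a → 2 * a + c ≤ finrank F V →
    (∃ a', St (bs x z) a' ∧ 2 * a' + c ≤ finrank F (V × W) ∧ a ≤ a') ∨
      Sm z ∧ (1 ≤ c → NC (bs x z) (finrank F (V × W))) := by
  induction m using Nat.strong_induction_on with
  | _ m ih =>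
  intro V W _ _ _ _ _ _ x z a hm h hc
  by_cases h0 : finrank F W = 0
  · exact .inl ⟨a, h.sim (sim_bs_triv h0 _ _).symm, by rw [finrank_prod]; omega, le_rfl⟩
  by_cases hz : NS z
  · obtain ⟨Y, Z, y, z', h1, h2, h3, -⟩ := exists_split hz
    have h6 := h1.finrank_eq
    rw [finrank_prod] at h6
    have h7 := (sim_assoc x y z').trans (sim_bs (Sim.refl _) h1)
    refine (ih _ (by omega) _ Z _ z' _ rfl (h.merge h4 h2 h3) (by rw [finrank_prod]; omega)).imp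
      (fun ⟨a', b1, b2, b3⟩ => ⟨a', b1.sim h7, h7.finrank_eq ▸ b2, by omega⟩)
      fun ⟨b1, b2⟩ => ⟨(b1.bs' y).sim h1, fun hc => h7.finrank_eq ▸ (b2 hc).sim h7⟩
  · obtain ⟨b, rfl, h1⟩ := sm_of_not_NS hz h0
    refine .inr ⟨h1, fun h2 => ?_⟩
    obtain ⟨m, m1, m2⟩ := ng_sc h4 b _ V W x a rfl h.1 h.cg (by omega) h.2.2.1
    exact (m2.nc (h1.bs' x).full).mono (h.1.ns.bs _) (by rwa [finrank_prod])

theorem Cy.nc3 (h : Cy x) (hn : finrank F V = 3) : NC x 3 := by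
  rintro M hM hd (_ | ⟨d, l⟩) hl
  · simp at hl
  replace hl : l.length = 2 := by simpa using hl
  obtain ⟨E, e1, e2, e3⟩ := exists_dt h4 (by omega : 2 ≤ finrank F V) (dt x ^ 2)
  obtain ⟨Y, Z, y, z, h1, h2, h3, -⟩ := exists_split hM
  have h6 := h1.finrank_eq
  rw [finrank_prod] at h6
  by_cases h0 : finrank F Z = 0
  · obtain ⟨w, c, a1, a2, a3⟩ := T1p ((h2.sim (sim_bs_triv h0 y z).symm).sim h1) hn.ge e1.inv e2.inv
      h (by simp [hd, e3, pow_succ' _ 2]) d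
    have a4 := sim_of_isConj a1
    exact ⟨c, w⁻¹, a2, h.ha hn.ge _ (e1.inv.sim a4).inv (e2.inv.sim a4).inv
      (by simp [← dt_isConj a1, e3]) l hl, by simp [← a3]⟩
  · obtain ⟨-, -, h7⟩ := sm_of_not_NS (x := z) (fun h => by have := h.two_le; omega) h0
    obtain ⟨b, E', a1, a2, rfl⟩ := T1' hM h e1 e2 (by rw [hd, e3, pow_succ'])
    obtain ⟨c, rfl⟩ := isConj_iff.1 a1
    simpa [Function.comp_def, -mul_inv_rev] using Pr.shift (l := dt c :: l.map ((d * (dt c)⁻¹)⁻¹ * ·))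
      ⟨c, _, rfl, ((h.ha hn.ge E e1 e2 e3).conj a2) _ (by simpa), rfl⟩ ((h7.bs' y).sim h1).full
      (d * (dt c)⁻¹)

theorem St.cov (h : St x a) (ha : 2 * a + 1 ≤ finrank F V) (hd : dt x = 1) : Cov x := by
  have hx := h.1.ns
  obtain ⟨-, -, h1, h | ⟨-, h⟩⟩ := h
  · exact cov_of_lt hx hd h.nc (by omega)
  obtain h2 | h2 := h1.eq_or_lt
  · exact ⟨h2 ▸ h.nc3 h4 h2.symm, sc_of_odd hx hd (.inl (h2 ▸ by decide))⟩
  obtain ⟨E, e1, e2, e3⟩ := exists_dt h4 (by omega : 2 ≤ finrank F V) 1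
  have h3 := h.ha h1 E e1 e2 (by simp [hd, e3])
  have h5 : NC x (2 + 2) := EXA.nc fun l hl => ⟨E, e1, e2, h3 l hl⟩
  obtain h2 | h2 := (Nat.succ_le_of_lt h2).eq_or_lt
  · refine ⟨h2 ▸ h5, 1, ?_⟩
    simpa [← h2] using h3.mul (h.ha h1 _ e1.inv e2.inv (by simp [hd, e3])) [1, 1, 1, 1] rfl
  · exact cov_of_lt hx hd h5 h2

theorem St.cov_bs (h : St x a) (ha : 2 * a + 1 ≤ finrank F V) (z : (End F W)ˣ)
    (hd : dt (bs x z) = 1) : Cov (bs x z) := by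
  obtain ⟨a', h1, h2, -⟩ | ⟨h1, h2⟩ := St.all h4 1 _ V W x z a rfl h ha
  · exact h1.cov h4 h2 hd
  · exact ⟨h2 le_rfl, sc_of_odd (h.1.ns.bs _) hd (.inr (h1.bs' x).full)⟩

theorem exists_quad_ne {p q r : F} (hp : p ≠ 0) : ∃ d : F, d ≠ 0 ∧ p * d ^ 2 + q * d + r ≠ 0 := by
  by_cases h : ∃ t : F, p * t ^ 2 + q * t + r = 0
  · obtain ⟨t, h⟩ := h
    obtain ⟨d, h1, h2, h3⟩ := exists_ne3 h4 0 t (-q / p - t)
    refine ⟨d, h1, fun e => h3 ?_⟩
    rw [eq_sub_iff_add_eq, eq_div_iff hp]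
    exact mul_left_cancel₀ (sub_ne_zero.2 h2) (by linear_combination e - h)
  · exact ⟨1, one_ne_zero, fun e => h ⟨1, e⟩⟩

section
variable (hx : NS x) (hz : NS z) (hq : Qd x τ δ) (hq' : Qd z τ δ) (hn : finrank F V = 2)
  (hm : finrank F W = 2)
include hx hz hq hq' hn hm

theorem st_two : St (bs x z) 2 := by
  refine ⟨hq.wit hq' hx hz, by omega, by simp [hn, hm], .inl fun l hl => ?_⟩
  obtain ⟨s, s', rfl⟩ := List.length_eq_two.1 hl
  obtain ⟨e, he⟩ := id hx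
  obtain ⟨E, a, b, e1, e2, e3, e4, e5⟩ := exists_E2 h4 hn (dt x ^ 2)
  obtain ⟨l, hl, h⟩ := Cy.hg h4 ⟨e, fun Y hY hi => eq_top_iff.2 (span_pair_top he hn ▸ span_le.2
    (Set.pair_subset hY (hi _ hY)))⟩ hn.ge 0 E e1 e2 e3
  obtain ⟨t, t', rfl⟩ := List.length_eq_two.1 hl
  set c := t * s' * (s * t')⁻¹ with hc
  obtain ⟨d, d0, d1⟩ := exists_quad_ne h4 (p := -(c : F)⁻¹) (q := τ + τ / c)
    (r := -δ / c - δ * c - (a + b)) (by simp)
  obtain ⟨E', f1, f2, f3⟩ := hq'.fam_cy hz.choose_spec hm c d0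
  have k : ∀ a' b' : F, a' * b' = a * b → a' + b' = a + b → E'.1.charpoly.eval a' ≠ 0 :=
    fun a' b' h1 h2 h3 => by
      rw [e5, Units.val_pow_eq_pow_val, hq.dt_eq he hn] at h1
      have h0 : a' ≠ 0 := by rintro rfl; exact pow_ne_zero 2 (hq.ne he) (by simpa using h1.symm)
      refine d1 (mul_left_cancel₀ h0 ?_)
      simp only [f3, eval_add, eval_sub, eval_mul, eval_pow, eval_X, eval_C] at h3
      linear_combination a' * h2 - h3 - h1
  refine ⟨_, e1.bs f2 (e4 ▸ (cop_X (k a b rfl rfl)).symm.mul_left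
    (cop_X (k b a (mul_comm _ _) (add_comm _ _))).symm), e2.bs _, ?_⟩
  convert (h.bs f1 rfl).shift (e2.bs _).full (s * t⁻¹) using 1
  simp [hc, Units.ext_iff]
  field

theorem st_five {b : Fˣ} (hb : (b : F) * b = τ * b - δ) : St (bs (bs x z) (sc F b)) 2 := by
  have h0 := hq.ne hx.choose_spec
  have h1 := (sm_sc (V := F) b).bs' (bs x z)
  refine ⟨(hq.wit hq' hx hz).bs _, by omega, by simp [hn, hm], .inl fun l hl => ?_⟩
  obtain ⟨c, -, c1⟩ := exists_unit_ne h4 0 ((b * τ * b ^ 2 - b ^ 4 - δ ^ 2) / (δ * b ^ 2))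
  obtain ⟨c', c2, c3⟩ := exists_unit_ne h4 c ((b * τ * b ^ 2 - b ^ 4 - δ ^ 2) / (δ * b ^ 2))
  obtain ⟨E, e1, e2, e3⟩ := hq.fam_cy hx.choose_spec hn c b.ne_zero
  obtain ⟨E', f1, f2, f3⟩ := hq'.fam_cy hz.choose_spec hm c' b.ne_zero
  rw [show (b : F) ^ 2 - τ * b + δ = 0 by linear_combination hb, zero_div, sub_zero] at e3 f3
  obtain ⟨g1, g2⟩ := cy_sc (finrank_self F) (b ^ 2)
  have k : ∀ c : F, c ≠ (b * τ * b ^ 2 - b ^ 4 - δ ^ 2) / (δ * b ^ 2) →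
      (X ^ 2 - C (b * τ - δ * c) * X + C (δ ^ 2)).eval ((b ^ 2 : Fˣ) : F) ≠ 0 := fun c h h' => h (by
    simp only [eval_add, eval_sub, eval_mul, eval_pow, eval_X, eval_C, Units.val_pow_eq_pow_val] at h'
    rw [eq_div_iff (by simp [h0])]
    linear_combination h')
  refine ⟨_, (e2.bs f2 ?_).bs g1 ?_, (sm_sc _).bs' _, h1.full.pa
    ((PG.bs ⟨[1, c], rfl, e1⟩ ⟨[1, c'], rfl, f1⟩).bs (pg_sc b 2)) l hl⟩
  · rw [e3, show E'.1.charpoly = C (δ * (c' - c)) * X + C 0 + (X ^ 2 - C (b * τ - δ * c) * X +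
      C (δ ^ 2)) * 1 by simp only [f3, map_sub, map_mul, map_zero]; ring]
    have h2 : δ * (c' - c) ≠ 0 := mul_ne_zero h0 (sub_ne_zero.2 c2)
    exact (cop_lin (fun t ht => by simp [show t = 0 by simpa [h2] using ht, h0])
      (.inl h2)).add_mul_left_right _
  · rw [charpoly_bs, g2, e3, f3]
    exact (cop_X (k c c1)).mul_left (cop_X (k c' c3))

theorem nc_quad {w : (End F U)ˣ} (hw : ¬ Sm w) : NC (bs (bs x z) w) (finrank F ((V × W) × U)) := by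
  obtain ⟨a, ⟨h1, -, -, h2 | h2⟩, h3, h5⟩ | h := St.all h4 0 _ _ U _ w 2 rfl
    (st_two h4 hx hz hq hq' hn hm) (by simp [hn, hm])
  · exact h2.nc.mono h1.ns (by omega)
  · omega
  · exact (hw h.1).elim

theorem cov_quad {w : (End F U)ˣ} (hq'' : Qd w τ δ) (hd : dt (bs (bs x z) w) = 1) :
    Cov (bs (bs x z) w) := by
  by_cases hw : Sm w
  · obtain ⟨Y, y, b, h⟩ := hw.split
    have h1 := (sim_assoc (bs x z) (sc F b) y).trans (sim_bs (Sim.refl _) h)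
    refine ((st_five h4 hx hz hq hq' hn hm (by simpa using hq''.left h 1)).cov_bs h4
      (by simp [hn, hm]) y (dt_sim h1 ▸ hd)).sim h1
  refine ⟨nc_quad h4 hx hz hq hq' hn hm hw, ?_⟩
  have a1 := hq.adj hx.choose_spec hn
  have a2 := hq'.adj hz.choose_spec hm
  have a3 := hq.dt_eq hx.choose_spec hn
  have a4 : dt z = dt x := Units.ext ((hq'.dt_eq hz.choose_spec hm).trans a3.symm)
  by_cases h0 : finrank F U = 0
  · refine Sc.sim ⟨dt x * dt x, ?_⟩ (sim_bs_triv h0 _ _).symm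
    have := a1.bs a2 rfl
    rw [a4, bs_sc] at this
    simpa [hn, hm] using this.append this
  obtain ⟨Y, Z, y, w', b1, b2, b3, b4, b5⟩ := hq''.split
    (by_contra fun h => hw (sm_of_not_NS h h0).choose_spec.2)
  obtain ⟨s, s1, s2⟩ := Qd.pure _ U w rfl hq'' hw
  replace s2 : dt w = dt x ^ s := Units.ext (by simp [s2, a3])
  have b6 := (sim_assoc z y w').trans (sim_bs (Sim.refl _) b1)
  have b7 := (nc_quad h4 hz b2 hq' b4 hm b3 fun h => hw ((h.bs' y).sim b1)).sim b6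
  rw [b6.finrank_eq, finrank_prod, hm, s1] at b7
  have b8 := (b7.mono (hz.bs w) (Nat.le_add_right _ 1)).pad (hz.bs w) (M := sc _ (dt x ^ (s + 2))) (by
    rw [dt_sc, dt_bs, a4, s2, finrank_prod, hm, s1, ← pow_succ', ← pow_mul, ← pow_mul]
    congr 1; ring)
  refine Sc.sim ⟨dt x ^ (s + 2), ?_⟩ ((sim_bs_comm (bs z w) x).trans (sim_assoc x z w).symm)
  rw [← bs_sc]
  refine b8.bs ?_ _ (by simp [hn, hm, s1])
  convert PG.pow ⟨_, rfl, a1⟩ (s + 2) using 1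
  · simp; ring
  · simp

end

theorem cov (hx : NS x) (hd : dt x = 1) (hn : 3 ≤ finrank F V) : Cov x := by
  obtain ⟨Y, Z, y, z, h1, h2, h3, h5⟩ := exists_split hx
  obtain h6 | h6 := h3.eq_or_lt
  swap
  · exact (St.cov_bs h4 ⟨h2.wit h6, le_rfl, h6, .inr ⟨rfl, h2⟩⟩ h6 z (dt_sim h1 ▸ hd)).sim h1
  obtain ⟨τ, δ, hq⟩ := h5 h6.symm
  have hy := h2.ns h3
  by_cases hz : NS z
  · obtain ⟨Y', Z', y', z', a1, a2, a3, a4, a5⟩ := (hq.right h1).split hz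
    have h7 := ((sim_assoc y y' z').trans (sim_bs (Sim.refl _) a1)).trans h1
    exact (cov_quad h4 hy a2 (hq.left h1) a4 h6.symm a3 a5 (dt_sim h7 ▸ hd)).sim h7
  have h7 := h1.finrank_eq
  rw [finrank_prod] at h7
  obtain ⟨b, rfl, h8⟩ := sm_of_not_NS hz (by omega)
  have := finrank_pos_iff.1 (by omega : 0 < finrank F Z)
  obtain ⟨v, hv⟩ := exists_ne (0 : Z)
  have h9 := ((hq.left h1).r1 (W := Z) hy.choose_spec h6.symm (smul_left_injective F hv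
    (by simpa [smul_smul, sub_smul] using hq.right h1 v))).ng h4 (fun h => by
      obtain ⟨v, hv⟩ := (hy.bs (sc Z b)).sc_mul b⁻¹
      simp [-map_inv, h] at hv) b
  rw [← mul_assoc, ← map_mul, mul_inv_cancel, map_one, one_mul] at h9
  exact Cov.sim ⟨h9.nc (h8.bs' y).full, sc_of_odd (hy.bs _) (dt_sim h1 ▸ hd)
    (.inr (h8.bs' y).full)⟩ h1

end Cfsg.Agent.Lin
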